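import Cfsg.Agent.ON.AlphaC

/-! The automorphism of the group of order 256 induced by an element that swaps the involutions. -/

set_option autoImplicit false
set_option maxRecDepth 100000
set_option Elab.async false

namespace Cfsg.ON

open Cfsg.H6 Subgroup

variable {G : Type*} [Group G]

def foldG (x y z : G) : ℕ → ℕ → G
  | 0, _ => 1
  | f + 1, W => if W = 0 then 1 else
      (if W % 4 < 2 then x else if W % 4 < 3 then y else z) * foldG x y z f (W / 4)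

theorem map_foldG (β : G →* G) (x y z : G) (f : ℕ) : ∀ W,
    β (foldG x y z f W) = foldG (β x) (β y) (β z) f W := by
  induction f with
  | zero => intro W; simp [foldG]
  | succ f ih => intro W; simp only [foldG]; split_ifs <;> simp [ih]

theorem fold_eq {ψ : ℕ → G} {a b c : ℕ} {x y z : G} (ha : ∀ i < 256, ψ (mt i a) = ψ i * x)
    (hb : ∀ i < 256, ψ (mt i b) = ψ i * y) (hc : ∀ i < 256, ψ (mt i c) = ψ i * z) (f : ℕ) :
    ∀ W, ∀ i < 256, fold a b c f W i < 256 ∧ ψ (fold a b c f W i) = ψ i * foldG x y z f W := by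
  induction f with
  | zero => intro W i hi; exact ⟨hi, by simp [foldG, fold]⟩
  | succ f ih =>
    intro W i hi
    have e : fold a b c (f + 1) W i = @Bool.rec (fun _ => ℕ)
      (frc (fun W' => frc (fold a b c f W') (mt i (g3 a b c (W % 4)))) (W / 4)) i (Nat.beq W 0) := rfl
    rw [e, frc_eq, frc_eq, foldG]
    by_cases h0 : W = 0
    · subst h0; exact ⟨hi, by simp⟩
    · have : Nat.beq W 0 = false := by rw [← Bool.not_eq_true, Nat.beq_eq]; exact h0
      rw [this, if_neg h0]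
      obtain ⟨h1, h2⟩ := ih (W / 4) _ (mt_lt i (g3 a b c (W % 4)))
      refine ⟨h1, h2.trans ?_⟩
      rw [← mul_assoc]
      congr 1
      unfold g3
      split_ifs with h3 h4
      · rw [sel_lt h3, ha i hi]
      · rw [sel_le (not_lt.mp h3), sel_lt h4, hb i hi]
      · rw [sel_le (not_lt.mp h3), sel_le (not_lt.mp h4), hc i hi]

/-- The elements of the group of order 256. -/
noncomputable def evD (ev : ℕ → G) (j : ℕ) : G := evL ev (nthW SW j)

variable {t : G} {K S : Subgroup G} {r ev : ℕ → G}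

structure Tab (t : G) (ev : ℕ → G) : Prop where
  mul : ∀ i < 256, ∀ j < 256, evD ev (mt i j) = evD ev i * evD ev j
  inj : ∀ i < 256, ∀ j < 256, evD ev i = evD ev j → i = j
  sur : ∀ x, Commute x t → Commute x (evL ev kd6.y) → ∃ j < 256, evD ev j = x
  cm : ∀ j < 256, Commute (evD ev j) t ∧ Commute (evD ev j) (evL ev kd6.y)
  gen : ∀ j < 256, evD ev j = foldG (evD ev 1) (evD ev 2) (evD ev 3) 10 (pwx j)
  y : evD ev 230 = evL ev kd6.y
  t : evD ev 243 = t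
  s1 : evL ev kd6.s * evD ev 1 * (evL ev kd6.s)⁻¹ = evD ev 205
  s2 : evL ev kd6.s * evD ev 2 * (evL ev kd6.s)⁻¹ = evD ev 76
  s3 : evL ev kd6.s * evD ev 3 * (evL ev kd6.s)⁻¹ = evD ev 182

theorem evD_zero : evD ev 0 = 1 := rfl

theorem Sit.tab [Finite G] (h : Sit t K S r ev (iB th6)) (E : Enum t K ev kd6) : Tab t ev := by
  have a1 : ∀ i < 256, Commute (evD ev i) (evL ev kd6.y) ∧
      ∀ l ∈ [1, 2, 3], evD ev (mt i l) = evD ev i * evD ev l := fun i hi => by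
    have := allR_spec m1 i (Nat.zero_le _) (by omega)
    simp only [Bool.and_eq_true, List.all_eq_true, h.orc.eqB_iff, evL_append] at this
    exact ⟨this.1, fun l hl => (this.2 l hl).symm⟩
  have a2 := fold_eq (ψ := evD ev) (fun i hi => (a1 i hi).2 1 (by simp))
    (fun i hi => (a1 i hi).2 2 (by simp)) (fun i hi => (a1 i hi).2 3 (by simp)) 10
  have a3 : ∀ i < 256, ∀ j < 256, mt i j = fold 1 2 3 10 (pwx j) i := fun i hi j hj => by
    have := allR_spec m3 j (Nat.zero_le _) (by omega)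
    rw [frcB_eq, frcB_eq] at this
    have := allR_spec this i (Nat.zero_le _) (by omega)
    rwa [frcB_eq, Nat.beq_eq] at this
  have a4 : ∀ j < 256, evD ev j = foldG (evD ev 1) (evD ev 2) (evD ev 3) 10 (pwx j) := fun j hj => by
    have := allR_spec m5 j (Nat.zero_le _) (by omega)
    simp only [Bool.and_eq_true, Nat.beq_eq] at this
    have e := (a2 (pwx j) 0 (by norm_num)).2
    rwa [← a3 0 (by norm_num) j hj, this.1.1, evD_zero, one_mul] at e
  have a5 : ∀ x, Commute x t → Commute x (evL ev kd6.y) → ∃ j < 256, evD ev j = x := fun x c1 c2 => by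
    obtain ⟨w, hw, rfl⟩ := E.en x c1 c2
    have hw' : w ∈ IX.map (nthW SW) := m4.1 ▸ hw
    obtain ⟨j, hj, rfl⟩ := List.mem_map.mp hw'
    exact ⟨j, Nat.blt_eq.mp (List.all_eq_true.mp m4.2 j hj), rfl⟩
  have a6 := m6
  simp only [Bool.and_eq_true, h.orc.eqB_iff, evL_append, evL_cons, evL_nil, mul_one, ← h.t2,
    ← mul_inv_eq_iff_eq_mul] at a6
  obtain ⟨⟨⟨⟨b1, b2⟩, b3⟩, b4⟩, b5⟩ := a6
  refine ⟨fun i hi j hj => by rw [a3 i hi j hj, (a2 _ i hi).2, ← a4 j hj], fun i hi j hj e => ?_, a5,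
    fun j hj => ⟨h.cT _, (a1 j hj).1⟩, a4, b1, b2, b3, b4, b5⟩
  let f : Fin 256 → (centralizer {t} ⊓ centralizer {evL ev kd6.y} : Subgroup G) := fun j =>
    ⟨evD ev j, h.orc.memW _, mem_centralizer_singleton_iff.mpr (a1 j j.2).1.eq⟩
  have hf : Function.Surjective f := by
    rintro ⟨x, c1, c2⟩
    obtain ⟨j, hj, e⟩ := a5 x (mem_centralizer_singleton_iff.mp c1) (mem_centralizer_singleton_iff.mp c2)
    exact ⟨⟨j, hj⟩, Subtype.ext e⟩
  have hb := hf.bijective_of_nat_card_le (by rw [E.card]; simp)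
  exact Fin.mk.inj (hb.1 (a₁ := ⟨i, hi⟩) (a₂ := ⟨j, hj⟩) (Subtype.ext e))

theorem Tab.fold (T : Tab t ev) {g : G} {a b c : ℕ} (ha : a < 256) (hb : b < 256) (hc : c < 256)
    (e1 : g * evD ev 1 * g⁻¹ = evD ev a) (e2 : g * evD ev 2 * g⁻¹ = evD ev b)
    (e3 : g * evD ev 3 * g⁻¹ = evD ev c) (f W : ℕ) : fold a b c f W 0 < 256 ∧
      evD ev (fold a b c f W 0) = g * foldG (evD ev 1) (evD ev 2) (evD ev 3) f W * g⁻¹ := by
  obtain ⟨h1, h2⟩ := fold_eq (ψ := evD ev) (fun i hi => T.mul i hi a ha) (fun i hi => T.mul i hi b hb)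
    (fun i hi => T.mul i hi c hc) f W 0 (by norm_num)
  refine ⟨h1, ?_⟩
  have := map_foldG (MulAut.conj g).toMonoidHom (evD ev 1) (evD ev 2) (evD ev 3) f W
  simp only [MulEquiv.coe_toMonoidHom, MulAut.conj_apply] at this
  rw [h2, evD_zero, one_mul, this, e1, e2, e3]

theorem Tab.aut (T : Tab t ev) {g : G} {a b c : ℕ} (ha : a < 256) (hb : b < 256) (hc : c < 256)
    (e1 : g * evD ev 1 * g⁻¹ = evD ev a) (e2 : g * evD ev 2 * g⁻¹ = evD ev b)
    (e3 : g * evD ev 3 * g⁻¹ = evD ev c) {j : ℕ} (hj : j < 256) : aut a b c j < 256 ∧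
      evD ev (aut a b c j) = g * evD ev j * g⁻¹ := by
  unfold Cfsg.ON.aut
  rw [frc_eq, T.gen j hj]
  exact T.fold ha hb hc e1 e2 e3 _ _

theorem Tab.cjx (T : Tab t ev) {z x : ℕ} (hz : z < 256) (hx : x < 256) :
    evD ev (cjx z x) = (evD ev x)⁻¹ * evD ev z * evD ev x := by
  have := allR_spec m5 x (Nat.zero_le _) (by omega)
  simp only [Bool.and_eq_true, Nat.beq_eq] at this
  have e := T.mul _ (ivx_lt x) _ hx
  rw [this.1.2, evD_zero, eq_comm, mul_eq_one_iff_eq_inv] at e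
  unfold Cfsg.ON.cjx
  rw [T.mul _ (mt_lt _ _) _ hx, T.mul _ (ivx_lt _) _ hz, e]

theorem Tab.inn (T : Tab t ev) {g : G} (c1 : Commute g t) (c2 : Commute g (evL ev kd6.y)) {a b c : ℕ}
    (ha : a < 256) (hb : b < 256) (hc : c < 256)
    (e1 : evD ev a = g * evD ev 1 * g⁻¹) (e2 : evD ev b = g * evD ev 2 * g⁻¹)
    (e3 : evD ev c = g * evD ev 3 * g⁻¹) : innB a b c = true := by
  obtain ⟨x, hx, e⟩ := T.sur _ c1.inv_left c2.inv_left
  have := allR_spec m5 x (Nat.zero_le _) (by omega)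
  simp only [Bool.and_eq_true] at this
  have k : ∀ i < 256, ∀ l < 256, evD ev i = g * evD ev l * g⁻¹ → i = Cfsg.ON.cjx l x :=
    fun i hi l hl e' => T.inj _ hi _ (mt_lt _ _) (by rw [T.cjx hl hx, e, e', inv_inv])
  rw [k a ha 1 (by norm_num) e1, k b hb 2 (by norm_num) e2, k c hc 3 (by norm_num) e3]
  exact this.2

theorem Tab.alpha (T : Tab t ev) (E : Enum t K ev kd6) (t2 : t * t = 1)
    (st : Commute (evL ev kd6.s) t) {g : G}
    (g1 : g⁻¹ * evL ev kd6.y * g = t) (g2 : g⁻¹ * t * g = evL ev kd6.y) :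
    ∃ g : G, g * t * g⁻¹ = evL ev kd6.y ∧ g * evL ev kd6.y * g⁻¹ = t ∧ ∃ c ∈ [3, 25, 63, 170],
      ∀ j < 256, Cfsg.ON.aut 2 1 c j < 256 ∧ evD ev (Cfsg.ON.aut 2 1 c j) = g * evD ev j * g⁻¹ := by
  have hs := E.ys
  have T1 := T.s1
  have T2 := T.s2
  have T3 := T.s3
  have yt : Commute (evL ev kd6.y) t := T.y ▸ (T.cm 230 (by norm_num)).1
  generalize evL ev kd6.s = s at hs T1 T2 T3 st
  have f1 : g * t * g⁻¹ = evL ev kd6.y := by rw [← g1]; group
  have f2 : g * evL ev kd6.y * g⁻¹ = t := by rw [← g2]; group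
  have im : ∀ j < 256, ∃ a < 256, g * evD ev j * g⁻¹ = evD ev a := fun j hj => by
    obtain ⟨c1, c2⟩ := T.cm j hj
    have d1 := comm_cj g⁻¹ c1
    have d2 := comm_cj g⁻¹ c2
    rw [inv_inv] at d1 d2
    obtain ⟨a, ha, e⟩ := T.sur _ (f2 ▸ d2) (f1 ▸ d1)
    exact ⟨a, ha, e.symm⟩
  obtain ⟨a, ha, e1⟩ := im 1 (by norm_num)
  obtain ⟨b, hb, e2⟩ := im 2 (by norm_num)
  obtain ⟨c, hc, e3⟩ := im 3 (by norm_num)
  have A := fun j hj => T.aut ha hb hc e1 e2 e3 (j := j) hj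
  have B := fun j hj => T.aut (by norm_num) (by norm_num) (by norm_num) T1 T2 T3 (j := j) hj
  obtain ⟨n1, n2, n3, n4, n5, n6, n7⟩ := m7
  have M : ∀ {i j i' j' : ℕ}, i < 256 → j < 256 → i' < 256 → j' < 256 →
      g * evD ev i * g⁻¹ = evD ev i' → g * evD ev j * g⁻¹ = evD ev j' →
      g * evD ev (mt i j) * g⁻¹ = evD ev (mt i' j') := fun a1 a2 a3 a4 a5 a6 => by
    rw [T.mul _ a1 _ a2, T.mul _ a3 _ a4, ← a5, ← a6]; group
  have z0 : g * evD ev 0 * g⁻¹ = evD ev 0 := by simp [evD_zero]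
  have z10 : g * evD ev 10 * g⁻¹ = evD ev 10 := by
    rw [← n1, T.mul _ (by norm_num) _ (by norm_num), T.y, T.t]
    calc _ = g * evL ev kd6.y * g⁻¹ * (g * t * g⁻¹) := by group
      _ = _ := by rw [f1, f2, yt.eq]
  have F0 : ∀ W, Cfsg.ON.fold 1 2 3 14 W 0 = 0 → Cfsg.ON.fold a b c 14 W 0 = 0 := fun W e => by
    obtain ⟨p1, p2⟩ := T.fold ha hb hc e1 e2 e3 14 W
    obtain ⟨-, p4⟩ := T.fold (g := 1) (a := 1) (b := 2) (c := 3) (by norm_num) (by norm_num)
      (by norm_num) (by simp) (by simp) (by simp) 14 W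
    rw [e, evD_zero, one_mul, inv_one, mul_one] at p4
    exact T.inj _ p1 _ (by norm_num) (by rw [p2, ← p4, evD_zero]; simp)
  have l := @mt_lt
  have c0 := allR_spec alpha_chk a (Nat.zero_le _) (by omega)
  have q1 := M (by norm_num) (by norm_num) ha ha e1 e1
  have q2 := M (by norm_num) (by norm_num) hb hb e2 e2
  have q3 := M (by norm_num) (by norm_num) hc hc e3 e3
  have q4 := M (by norm_num) (by norm_num) hb ha e2 e1
  have q5 := M (l _ _) (l _ _) (l _ _) (l _ _) q4 q4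
  have q6 := M (l _ _) (l _ _) (l _ _) (l _ _) q5 q5
  rw [n2, z0] at q1
  rw [n3, z0] at q2
  rw [n4, z10] at q3
  rw [n5, z10] at q6
  have nbf : ∀ x : ℕ, nb x x = false := fun x => by simp [nb]
  rw [frcB_eq, ← T.inj _ (by norm_num) _ (l _ _) q1, nbf, Bool.false_or] at c0
  have c1 := allR_spec c0 b (Nat.zero_le _) (by omega)
  rw [frcB_eq, ← T.inj _ (by norm_num) _ (l _ _) q2, ← T.inj _ (by norm_num) _ (l _ _) q6, nbf, nbf,
    Bool.false_or, Bool.false_or] at c1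
  have c2 := allR_spec c1 c (Nat.zero_le _) (by omega)
  have q7 : Cfsg.ON.aut a b c 230 = 243 := T.inj _ (A _ (by norm_num)).1 _ (by norm_num) (by
    rw [(A _ (by norm_num)).2, T.y, T.t, f2])
  have cv : ∀ x z : G, x * z * x⁻¹ = z → Commute x z := fun x z e => mul_inv_eq_iff_eq_mul.mp e
  have q8 : innB (Cfsg.ON.aut a b c a) (Cfsg.ON.aut a b c b) (Cfsg.ON.aut a b c c) = true := by
    have k : ∀ z, g * g * z * (g * g)⁻¹ = g * (g * z * g⁻¹) * g⁻¹ := fun z => by group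
    exact T.inn (g := g * g) (cv _ _ (by rw [k, f1, f2])) (cv _ _ (by rw [k, f2, f1])) (A _ ha).1
      (A _ hb).1 (A _ hc).1 (by rw [k, e1, (A _ ha).2]) (by rw [k, e2, (A _ hb).2])
      (by rw [k, e3, (A _ hc).2])
  have q9 : innB (cub a b c 1) (cub a b c 2) (cub a b c 3) = true := by
    have k : ∀ z, (g * s) ^ 3 * z * ((g * s) ^ 3)⁻¹ =
        g * (s * (g * (s * (g * (s * z * s⁻¹) * g⁻¹) * s⁻¹) * g⁻¹) * s⁻¹) * g⁻¹ := fun z => by
      rw [pow_three]; group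
    have C : ∀ j < 256, cub a b c j < 256 ∧
        evD ev (cub a b c j) = (g * s) ^ 3 * evD ev j * ((g * s) ^ 3)⁻¹ := fun j hj => by
      obtain ⟨p1, p2⟩ := B j hj
      obtain ⟨p3, p4⟩ := A _ p1
      obtain ⟨p5, p6⟩ := B _ p3
      obtain ⟨p7, p8⟩ := A _ p5
      obtain ⟨p9, p10⟩ := B _ p7
      obtain ⟨p11, p12⟩ := A _ p9
      exact ⟨p11, by rw [k, ← p2, ← p4, ← p6, ← p8, ← p10, ← p12]; rfl⟩
    have u1 : s * t * s⁻¹ = t := by rw [st.eq]; simp
    have u2 : s * (evL ev kd6.y * t) * s⁻¹ = evL ev kd6.y := by rw [← mul_assoc, ← hs]; simp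
    have u3 : s * evL ev kd6.y * s⁻¹ = evL ev kd6.y * t := by
      rw [← mul_left_inj t, mul_assoc _ t, t2, mul_one, mul_assoc, st.inv_left.eq, ← mul_assoc,
        mul_assoc s, u2]
    have u4 : g * (evL ev kd6.y * t) * g⁻¹ = evL ev kd6.y * t := by
      calc _ = g * evL ev kd6.y * g⁻¹ * (g * t * g⁻¹) := by group
        _ = _ := by rw [f1, f2, yt.eq]
    exact T.inn (g := (g * s) ^ 3) (cv _ _ (by rw [k, u1, f1, u3, u4, u2, f2]))
      (cv _ _ (by rw [k, u3, u4, u2, f2, u1, f1])) (C 1 (by norm_num)).1 (C 2 (by norm_num)).1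
      (C 3 (by norm_num)).1 (C 1 (by norm_num)).2 (C 2 (by norm_num)).2 (C 3 (by norm_num)).2
  rw [frcB_eq, leaf, ← T.inj _ (by norm_num) _ (l _ _) q3, F0 _ n6, F0 _ n7, q7, q8, q9, nbf, nbf,
    nbf] at c2
  simp only [Bool.not_true, Bool.false_or, List.any_eq_true, List.mem_range, Bool.and_eq_true,
    Nat.beq_eq] at c2
  obtain ⟨x, hx, ⟨d1, d2⟩, c', d3, d4⟩ := c2
  obtain ⟨x1, x2⟩ := T.cm x hx
  have k : ∀ z, (evD ev x)⁻¹ * g * z * ((evD ev x)⁻¹ * g)⁻¹ =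
      (evD ev x)⁻¹ * (g * z * g⁻¹) * evD ev x := fun z => by group
  refine ⟨(evD ev x)⁻¹ * g, by rw [k, f1, cj_t x2], by rw [k, f2, cj_t x1], c', d3, fun j hj => ?_⟩
  exact T.aut (by norm_num) (by norm_num) (d4 ▸ l _ _) (by rw [k, e1, ← T.cjx ha hx, d1])
    (by rw [k, e2, ← T.cjx hb hx, d2]) (by rw [k, e3, ← T.cjx hc hx, d4]) hj

end Cfsg.ON
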