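import Cfsg.Agent.ON.Ext

/-! The action of an element outside the perfect subgroup. -/

set_option autoImplicit false
set_option maxRecDepth 100000

namespace Cfsg.ON

open Cfsg.H6 Subgroup

variable {G : Type*} [Group G]

theorem conj_into {q : ℕ} [Fact q.Prime] [Finite G] {K T P : Subgroup G} (hP : IsPGroup q P)
    (hPK : P ≤ K) (h : ¬ q ∣ T.relIndex K) : ∃ g ∈ K, ∀ x ∈ P, g⁻¹ * x * g ∈ T := by
  have h1 : IsPGroup q (P.subgroupOf K) := hP.comap_subtype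
  obtain ⟨c, hc⟩ := h1.nonempty_fixed_point_of_prime_not_dvd_card (K ⧸ T.subgroupOf K) h
  obtain ⟨g, rfl⟩ := QuotientGroup.mk_surjective c
  refine ⟨g, g.2, fun x hx => ?_⟩
  have h2 := hc ⟨⟨x, hPK hx⟩, hx⟩
  have h3 : ((g : K ⧸ T.subgroupOf K)) = ((⟨x, hPK hx⟩ * g : K) : K ⧸ T.subgroupOf K) := h2.symm
  rw [QuotientGroup.eq, mem_subgroupOf] at h3
  simpa [mul_assoc] using h3

def prods (V : List (List ℕ)) : List (List ℕ) :=
  (List.range 7).flatMap fun i => (List.range 3).flatMap fun j =>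
    V.map fun v => rp i [1] ++ rp j [3] ++ v

noncomputable def fixChk (img : ℕ → ℕ → ℕ) (n : ℕ) (w : List ℕ) (V : List (List ℕ)) : Bool :=
  allR (fun q => !Nat.beq (trF img w q) q || V.any fun v => Nat.beq (trF img v 0) q) 0 n

theorem Orc.enum_fix [Finite G] {K : Subgroup G} {r ev : ℕ → G} {img : ℕ → ℕ → ℕ} {n b : ℕ}
    (O : Orc K (closure {ev 1, ev 3}) r ev img n b) (hF : F21 (ev 1) (ev 3)) {w : List ℕ}
    {V : List (List ℕ)} (hV : fixChk img n w V = true) {g : G} (hg : g ∈ K)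
    (hw : g * evL ev w * g⁻¹ ∈ closure {ev 1, ev 3}) : ∃ w' ∈ prods V, evL ev w' = g := by
  obtain ⟨q, hq, e⟩ := O.cov g hg
  have h1 := allR_spec hV q (Nat.zero_le _) (by omega)
  rw [O.fix hq e hw] at h1
  simp only [Nat.beq_refl, Bool.not_true, Bool.false_or, List.any_eq_true, Nat.beq_eq] at h1
  obtain ⟨v, hv, e1⟩ := h1
  have h2 := (O.cf.tr v O.pos).2
  rw [O.r0, one_mul, e1] at h2
  obtain ⟨i, hi, j, hj, e2⟩ := hF.enum (e.trans h2.symm)
  refine ⟨rp i [1] ++ rp j [3] ++ v, ?_, ?_⟩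
  · simp only [prods, List.mem_flatMap, List.mem_range, List.mem_map]
    exact ⟨i, hi, j, hj, v, hv, rfl⟩
  · rw [evL_append, evL_append, evL_rp, evL_rp, evL_singleton, evL_singleton, ← e2]
    group

def V1 : List (List ℕ) := [[], [7], [7, 7], [7, 7, 7]]

def V3 : List (List ℕ) := [[], [5], [6], [5, 1, 5, 2, 6, 1, 6, 2], [5, 1, 5, 2, 6, 1, 6, 2, 5],
  [5, 1, 5, 2, 6, 1, 6, 2, 6]].flatMap fun v => V1.map fun z => v ++ z

def cc (p a b : ℕ) : ℕ :=
  if (a = 1 ∧ b = 1) ∨ (p = 0 ∧ a = 6 ∧ b = 2) ∨ (p = 2 ∧ a = 1 ∧ b = 2) then 1 else 3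

noncomputable def autChk (img : ℕ → ℕ → ℕ) (p : ℕ) : Bool :=
  fixChk img 3840 [1] V1 && fixChk img 3840 [3] V3 &&
  ((prods V1).all fun w => !eqB img 36 (rp 3 w) [] || !eqB img 36 (w ++ [1]) ([1, 1] ++ w) ||
    (List.range 7).any fun k => eqB img 36 (rp k [1] ++ w) ([3] ++ rp k [1])) &&
  ((prods V1).all fun w => !eqB img 36 (w ++ [1]) ([1] ++ w) || !eqB img 36 (w ++ [3]) ([3] ++ w) ||
    (List.range 4).any fun m => eqB img 36 w (rp m [7])) &&
  ([1, 6].all fun a => (prods V3).all fun w => !eqB img 36 ([3] ++ w) (w ++ [3]) ||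
    !eqB img 36 (rp 3 w) [] || !eqB img 36 (rp 5 (rp a [1] ++ w)) (rp p [7]) ||
    !eqB img 36 (rp 2 (rp 5 (rp a [1] ++ [3] ++ w))) (rp 2 [7]) ||
    [1, 2].any fun b => eqB img 36 w (rp b [5]) &&
      eqB img 36 (rp 5 (rp a [1] ++ [3] ++ w)) (rp (cc p a b) [7])) &&
  !eqB img 36 [1] []

theorem autA : autChk (iA tid) 0 = true := by decide +kernel
theorem autB : autChk (iB tid) 2 = true := by decide +kernel

variable {K : Subgroup G} {t u X W Y : G} {p : ℕ} {I : ℕ → ℕ → ℕ → ℕ}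

theorem exists_cand0 [Finite G] (hM : Mdl K u X W Y p) (hy : Hyp t K) (hI : Fam I p)
    (hp : p = 0 ∨ p = 2) (hk : autChk (I tid) p = true) :
    ∃ h a b m, (a = 1 ∨ a = 6) ∧ (b = 1 ∨ b = 2) ∧ ¬ (a = 1 ∧ b = 1) ∧ m < 4 ∧
      Cand K t u X W Y h p a b (cc p a b) m := by
  classical
  have O := hM.orc hI
  have F := hM.tri.f
  obtain ⟨mX, mW, mY⟩ := hM.tri.mem
  have EF : ∀ {w : List ℕ} {V : List (List ℕ)}, fixChk (I tid) 3840 w V = true → ∀ {g : G}, g ∈ K →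
      g * evL (evH X W Y u 1) w * g⁻¹ ∈ closure {X, W} → ∃ w' ∈ prods V, evL (evH X W Y u 1) w' = g :=
    fun hV _ hg hw => Orc.enum_fix (ev := evH X W Y u 1) O F hV hg hw
  unfold autChk at hk
  simp only [Bool.and_eq_true, List.all_eq_true, Bool.or_eq_true, O.ne_iff, List.any_eq_true,
    O.eqB_iff, List.mem_range, evL_append, evL_rp, evL_cons, evL_nil, mul_one, or_assoc,
    ne_eq] at hk
  simp only [← imp_iff_not_or] at hk
  obtain ⟨⟨⟨⟨⟨k1, k3⟩, kW⟩, kZ⟩, kY⟩, x1⟩ := hk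
  have e1 : evH X W Y u 1 1 = X := rfl
  have e3 : evH X W Y u 1 3 = W := rfl
  have e5 : evH X W Y u 1 5 = Y := rfl
  have e7 : evH X W Y u 1 7 = u := rfl
  rw [e1] at x1
  simp only [e1, e3, e5, e7] at kW kZ kY
  have mS : X ∈ closure {X, W} := Subgroup.subset_closure (by simp)
  have mS' : W ∈ closure {X, W} := Subgroup.subset_closure (by simp)
  have cen : ∀ g ∈ K, Commute g X → Commute g W → ∃ m < 4, g = u ^ m := fun g hg c1 c2 => by
    obtain ⟨w, hw, rfl⟩ := EF k1 hg (by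
      rw [evL_singleton, e1, c1.eq, mul_inv_cancel_right]; exact mS)
    exact kZ w hw c1.eq c2.eq
  have cj : ∀ g ∈ centralizer {t}, ∀ k ∈ K, g⁻¹ * k * g ∈ K := fun g hg k hk => by
    simpa using hy.nrm _ (inv_mem hg) k hk
  have ct : ∀ g ∈ centralizer {t}, Commute g t := fun g hg => mem_centralizer_singleton_iff.mp hg
  have ht : t = u ^ 2 := by
    obtain ⟨m, hm, e⟩ := cen t hy.tK (ct _ (hy.le mX)).symm (ct _ (hy.le mW)).symm
    have o2 : t ^ 2 = 1 := hy.ord ▸ pow_orderOf_eq_one t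
    have z2 := hM.tri.z2
    interval_cases m
    · rw [pow_zero] at e
      have := hy.ord
      rw [e, orderOf_one] at this
      omega
    · rw [pow_one] at e; exact absurd (e ▸ o2) z2
    · exact e
    · rw [e, ← pow_mul, show 3 * 2 = 4 + 2 by rfl, pow_add, hM.tri.z4, one_mul] at o2
      exact absurd o2 z2
  obtain ⟨h0, a0, a1⟩ : ∃ h ∈ centralizer {t}, h ∉ K := by
    by_contra hc
    push Not at hc
    have := card_le_of_le (show centralizer {t} ≤ K from hc)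
    rw [hy.card, hM.tri.card] at this
    omega
  have adj : ∀ h ∈ centralizer {t}, h ∉ K → ∀ k ∈ K, h * k ∈ centralizer {t} ∧ h * k ∉ K :=
    fun h b0 b1 k hk => ⟨mul_mem b0 (hy.le hk), fun e => b1 ((mul_mem_cancel_right hk).mp e)⟩
  have : Fact (Nat.Prime 7) := ⟨by norm_num⟩
  have oX : orderOf X = 7 := orderOf_eq_prime F.x7 x1
  obtain ⟨h2, a, b0, b1, ha, b2⟩ : ∃ h a, h ∈ centralizer {t} ∧ h ∉ K ∧ (a = 1 ∨ a = 6) ∧
      h⁻¹ * X * h = X ^ a := by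
    obtain ⟨g, hg, e⟩ := conj_into (q := 7) (K := K) (T := zpowers X) (P := zpowers (h0⁻¹ * X * h0))
      (IsPGroup.of_card (n := 1) (by
        rw [Nat.card_zpowers, pow_one, ← oX]
        exact (orderOf_injective (MulAut.conj h0⁻¹).toMonoidHom (MulAut.conj h0⁻¹).injective X).symm ▸
          (by simp))) (zpowers_le.mpr (cj _ a0 _ mX)) (by
        have := relIndex_mul_relIndex ⊥ (zpowers X) K bot_le (zpowers_le.mpr mX)
        rw [relIndex_bot_left, relIndex_bot_left, Nat.card_zpowers, oX, hM.tri.card] at this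
        omega)
    obtain ⟨i, hi, e2⟩ : ∃ i < 7, g⁻¹ * (h0⁻¹ * X * h0) * g = X ^ i := by
      have := e _ (mem_zpowers _)
      rw [mem_zpowers_iff_mem_range_orderOf, oX] at this
      obtain ⟨i, hi, e3⟩ := Finset.mem_image.mp this
      exact ⟨i, Finset.mem_range.mp hi, e3.symm⟩
    have key : ∀ j a, (a = 1 ∨ a = 6) → i * 2 ^ j % 7 = a → ∃ h a, h ∈ centralizer {t} ∧ h ∉ K ∧
        (a = 1 ∨ a = 6) ∧ h⁻¹ * X * h = X ^ a := fun j a ha e4 => by
      obtain ⟨c1, c2⟩ := adj h0 a0 a1 (g * (W ^ j)⁻¹) (mul_mem hg (inv_mem (pow_mem mW j)))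
      refine ⟨_, a, c1, c2, ha, ?_⟩
      rw [← e4, ← pow_eq_pow_mod _ F.x7, ← mul_inv_eq_iff_eq_mul.mpr (F.comm j i), ← e2]
      group
    interval_cases i
    · refine absurd ?_ x1
      calc X = h0 * g * (g⁻¹ * (h0⁻¹ * X * h0) * g) * (h0 * g)⁻¹ := by group
        _ = 1 := by rw [e2]; simp
    · exact key 0 1 (by simp) rfl
    · exact key 2 1 (by simp) rfl
    · exact key 1 6 (by simp) rfl
    · exact key 1 1 (by simp) rfl
    · exact key 2 6 (by simp) rfl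
    · exact key 0 6 (by simp) rfl
  have cp : ∀ (h g : G) (n : ℕ), h⁻¹ * g ^ n * h = (h⁻¹ * g * h) ^ n := fun h g n => by
    simpa using (conj_pow (a := h⁻¹) (b := g) (i := n)).symm
  have aa : (X ^ a) ^ a = X := by
    rw [← pow_mul, pow_eq_pow_mod _ F.x7]
    rcases ha with rfl | rfl <;> simp
  obtain ⟨h3, c0, c1, c2, c3⟩ : ∃ h, h ∈ centralizer {t} ∧ h ∉ K ∧ h⁻¹ * X * h = X ^ a ∧
      h⁻¹ * W * h = W := by
    have d1 : h2⁻¹ * W * h2 * X = X * X * (h2⁻¹ * W * h2) := by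
      have d2 : X = h2⁻¹ * X ^ a * h2 := by rw [cp, b2, aa]
      have d3 := F.comm 1 a
      rw [pow_one, pow_one, pow_mul] at d3
      calc _ = h2⁻¹ * (W * X ^ a) * h2 := by conv_lhs => rw [d2]
                                             group
        _ = (h2⁻¹ * X ^ a * h2) ^ 2 * (h2⁻¹ * W * h2) := by rw [d3, ← cp]; group
        _ = _ := by rw [← d2, sq]
    obtain ⟨w, hw, e⟩ := EF k1 (cj _ b0 _ mW) (by
      rw [evL_singleton, e1, d1, mul_inv_cancel_right]; exact mul_mem mS mS)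
    obtain ⟨k, -, e2⟩ := kW w hw (by rw [e, ← cp, F.w3]; simp) (by rw [e, d1])
    obtain ⟨f1, f2⟩ := adj h2 b0 b1 (X ^ k)⁻¹ (inv_mem (pow_mem mX k))
    refine ⟨_, f1, f2, ?_, ?_⟩
    · rw [mul_inv_rev, inv_inv, mul_assoc, mul_assoc, ← mul_assoc X, ← mul_assoc h2⁻¹,
        ← mul_assoc h2⁻¹, b2]
      group
    · rw [e] at e2
      calc _ = X ^ k * (h2⁻¹ * W * h2) * (X ^ k)⁻¹ := by group
        _ = W := by rw [e2]; simp
  have cm : ∀ x y : G, h3⁻¹ * (x * y) * h3 = (h3⁻¹ * x * h3) * (h3⁻¹ * y * h3) := fun x y => by group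
  have d1 : W * (h3⁻¹ * Y * h3) = h3⁻¹ * Y * h3 * W := by
    conv_lhs => rw [← c3]
    conv_rhs => rw [← c3]
    rw [← cm, ← cm, hM.tri.c.eq]
  obtain ⟨w, hw, e⟩ := EF k3 (cj _ c0 _ mY) (by
    rw [evL_singleton, e3, ← d1, mul_inv_cancel_right]; exact mS')
  have tt : h3⁻¹ * u ^ 2 * h3 = u ^ 2 := by rw [← ht, mul_assoc, ← (ct _ c0).eq]; simp
  have d2 : (X ^ a * W * (h3⁻¹ * Y * h3)) ^ 5 = h3⁻¹ * u * h3 := by
    rw [← hM.e2, cp, cm, cm, c2, c3]
  obtain ⟨b, hb, e2, e4⟩ := kY a (by simpa using ha) w hw (by rw [e, d1])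
    (by rw [e, ← cp, hM.tri.y3]; simp) (by
      rw [e, ← c2, ← cm, ← cp, hM.e0]
      rcases hp with rfl | rfl
      · simp
      · exact tt) (by rw [e, d2, ← cp, tt])
  rw [e] at e2 e4
  rw [d2] at e4
  have hb' : b = 1 ∨ b = 2 := by simpa using hb
  have cK : ∀ g : G, Commute g X → Commute g W → Commute g Y → ∀ k ∈ K, Commute g k := by
    intro g f1 f2 f3 k hk
    have : K ≤ centralizer {g} := by
      rw [← hM.tri.gen, closure_le]
      rintro _ (rfl | rfl | rfl) <;> rw [SetLike.mem_coe, mem_centralizer_singleton_iff]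
      exacts [f1.symm.eq, f2.symm.eq, f3.symm.eq]
    exact (show Commute k g from mem_centralizer_singleton_iff.mp (this hk)).symm
  have cv : ∀ g x : G, g⁻¹ * x * g = x → Commute g x := fun g x e => by
    rw [Commute, SemiconjBy]; conv_lhs => rw [← e]
    group
  obtain ⟨m, hm, e6⟩ := cen (h3 * h3) ((hy.two _ c0 _ c0).mpr Iff.rfl) (cv _ _ (by
      rw [mul_inv_rev, mul_assoc, mul_assoc, ← mul_assoc X, ← mul_assoc h3⁻¹ (X * h3),
        ← mul_assoc h3⁻¹ X, c2, ← mul_assoc, cp, c2, aa])) (cv _ _ (by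
      rw [mul_inv_rev, mul_assoc, mul_assoc, ← mul_assoc W, ← mul_assoc h3⁻¹ (W * h3),
        ← mul_assoc h3⁻¹ W, c3, ← mul_assoc, c3]))
  refine ⟨h3, a, b, m, ha, hb', ?_, hm, hM, hy, c0, c1, c2, c3, e2, e4, e6, ht⟩
  rintro ⟨rfl, rfl⟩
  rw [pow_one] at c2 e2
  exact c1 (hy.out _ c0 (cK _ (cv _ _ c2) (cv _ _ c3) (cv _ _ e2)))

theorem Cand.even {h : G} {a b m : ℕ} (hc : Cand K t u X W Y h p a b 3 m) (hm : m < 4) :
    m = 0 ∨ m = 2 := by
  have h1 : h⁻¹ * u ^ m * h = u ^ m := by rw [← hc.sq]; group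
  have h2 : h⁻¹ * u ^ m * h = (u ^ 3) ^ m := by
    rw [← hc.cu]; simpa using (conj_pow (a := h⁻¹) (b := u) (i := m)).symm
  have z4 := hc.mdl.tri.z4
  have z2 := hc.mdl.tri.z2
  rw [h1, ← pow_mul] at h2
  interval_cases m
  · simp
  · refine absurd ?_ z2
    rw [show 3 * 1 = 1 + 2 by rfl, pow_add] at h2
    exact (left_eq_mul.mp h2)
  · simp
  · refine absurd ?_ z2
    rw [show 3 * 3 = 3 + 4 + 2 by rfl, pow_add, pow_add, z4, mul_one] at h2
    exact (left_eq_mul.mp h2)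

theorem Cand.down {h : G} {a b m : ℕ} (hc : Cand K t u X W Y h p a b 1 (m + 2)) :
    Cand K t u X W Y (h * u) p a b 1 m := by
  obtain ⟨mX, mW, mY⟩ := hc.mdl.tri.mem
  have mu := hc.mdl.tri.zK
  have k : ∀ x y : G, y ∈ K → h⁻¹ * x * h = y → (h * u)⁻¹ * x * (h * u) = y := fun x y hy e => by
    calc _ = u⁻¹ * (h⁻¹ * x * h * u) := by group
      _ = _ := by rw [e, ← (hc.mdl.tri.cen y hy).eq]; simp
  refine ⟨hc.mdl, hc.hyp, mul_mem hc.hC (hc.hyp.le mu), fun e => hc.hK ((mul_mem_cancel_right mu).mp e),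
    k _ _ (pow_mem mX _) hc.cx, k _ _ mW hc.cw, k _ _ (pow_mem mY _) hc.cy, k _ _ (pow_mem mu _) hc.cu,
    ?_, hc.ct⟩
  have h1 := hc.cu
  rw [pow_one] at h1
  calc h * u * (h * u) = h * h * (h⁻¹ * u * h) * u := by group
    _ = u ^ m * u ^ 4 := by rw [hc.sq, h1]; group
    _ = _ := by rw [hc.mdl.tri.z4, mul_one]

/-- The twelve possibilities. -/
def CL : List (ℕ × ℕ × ℕ × ℕ × ℕ) := [(0,6,1,3,0),(0,6,1,3,2),(0,1,2,3,0),(0,1,2,3,2),(0,6,2,1,0),
  (0,6,2,1,1),(2,6,1,3,0),(2,6,1,3,2),(2,1,2,1,0),(2,1,2,1,1),(2,6,2,3,0),(2,6,2,3,2)]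

theorem exists_cand [Finite G] (hM : Mdl K u X W Y p) (hy : Hyp t K) (hp : p = 0 ∨ p = 2) :
    ∃ h a b c m, (p, a, b, c, m) ∈ CL ∧ Cand K t u X W Y h p a b c m := by
  obtain ⟨h, a, b, m, ha, hb, hab, hm, hc⟩ : ∃ h a b m, (a = 1 ∨ a = 6) ∧ (b = 1 ∨ b = 2) ∧
      ¬ (a = 1 ∧ b = 1) ∧ m < 4 ∧ Cand K t u X W Y h p a b (cc p a b) m := by
    rcases hp with rfl | rfl
    · exact exists_cand0 hM hy famA (Or.inl rfl) autA
    · exact exists_cand0 hM hy famB (Or.inr rfl) autB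
  have k1 : (p, a, b, 3, 0) ∈ CL → (p, a, b, 3, 2) ∈ CL → cc p a b = 3 →
      ∃ h a b c m, (p, a, b, c, m) ∈ CL ∧ Cand K t u X W Y h p a b c m := fun a1 a2 e => by
    rw [e] at hc
    rcases hc.even hm with rfl | rfl
    exacts [⟨_, _, _, _, _, a1, hc⟩, ⟨_, _, _, _, _, a2, hc⟩]
  have k2 : (p, a, b, 1, 0) ∈ CL → (p, a, b, 1, 1) ∈ CL → cc p a b = 1 →
      ∃ h a b c m, (p, a, b, c, m) ∈ CL ∧ Cand K t u X W Y h p a b c m := fun a1 a2 e => by
    rw [e] at hc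
    interval_cases m
    exacts [⟨_, _, _, _, _, a1, hc⟩, ⟨_, _, _, _, _, a2, hc⟩, ⟨_, _, _, _, _, a1, hc.down⟩,
      ⟨_, _, _, _, _, a2, hc.down⟩]
  rcases hp with rfl | rfl <;> rcases ha with rfl | rfl <;> rcases hb with rfl | rfl
  all_goals first
    | exact absurd ⟨rfl, rfl⟩ hab
    | exact k1 (by decide) (by decide) (by decide)
    | exact k2 (by decide) (by decide) (by decide)

end Cfsg.ON
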