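import Cfsg.Agent.H6.DCE

/-! Tables of right cosets of a subgroup, used as an oracle for words. -/

set_option autoImplicit false

namespace Cfsg.ON

open Cfsg.H6

variable {G : Type*} [Group G] {S K : Subgroup G} {r ev : ℕ → G} {img : ℕ → ℕ → ℕ} {n b : ℕ}

/-- The table `img` describes right multiplication of the cosets `S * r p` by the letters. -/
def CF (S : Subgroup G) (r ev : ℕ → G) (img : ℕ → ℕ → ℕ) (n : ℕ) : Prop :=
  ∀ x p, p < n → img x p < n ∧ RC S (r p * ev x) (r (img x p))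

theorem CF.tr (h : CF S r ev img n) (w : List ℕ) : ∀ {p : ℕ}, p < n →
    trF img w p < n ∧ RC S (r p * evL ev w) (r (trF img w p)) := by
  induction w with
  | nil => intro p hp; rw [trF_eq, tr_nil, evL_nil, mul_one]; exact ⟨hp, RC.refl _ _⟩
  | cons x w ih =>
    intro p hp
    obtain ⟨h1, h2⟩ := h x p hp
    obtain ⟨h3, h4⟩ := ih h1
    rw [trF_eq] at h3 h4
    rw [trF_eq, tr_cons, evL_cons, ← mul_assoc]
    exact ⟨h3, (h2.mul _).trans h4⟩

theorem CF.congr (h : CF S r ev img n) {img' : ℕ → ℕ → ℕ}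
    (e : ∀ x p, p < n → img' x p = img x p) : CF S r ev img' n := by
  intro x p hp
  rw [e x p hp]
  exact h x p hp

theorem exists_word [Finite G] {g : G} (hg : g ∈ Subgroup.closure (Set.range ev)) :
    ∃ w, evL ev w = g := by
  have h : g ∈ Submonoid.closure (Set.range ev) := by
    rw [← Subgroup.closure_toSubmonoid_of_finite]; exact hg
  clear hg
  induction h using Submonoid.closure_induction with
  | mem x hx => obtain ⟨l, rfl⟩ := hx; exact ⟨[l], evL_singleton _ _⟩
  | one => exact ⟨[], rfl⟩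
  | mul x y _ _ hx hy =>
    obtain ⟨u, rfl⟩ := hx
    obtain ⟨v, rfl⟩ := hy
    exact ⟨u ++ v, evL_append _ _ _⟩

theorem CF.cov [Finite G] (h : CF S r ev img n) (h0 : r 0 = 1) (hn : 0 < n) {g : G}
    (hg : g ∈ Subgroup.closure (Set.range ev)) : ∃ p < n, RC S g (r p) := by
  obtain ⟨w, rfl⟩ := exists_word hg
  have := h.tr w hn
  rw [h0, one_mul] at this
  exact ⟨_, this⟩

theorem inj_of_card [Finite G] (hS : S ≤ K) (hr : ∀ p, r p ∈ K)
    (hc : ∀ g ∈ K, ∃ p < n, RC S g (r p)) (hn : n * Nat.card S ≤ Nat.card K) :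
    ∀ p < n, ∀ q < n, RC S (r p) (r q) → p = q := by
  let f : Fin n × S → K := fun x => ⟨x.2.1 * r x.1, K.mul_mem (hS x.2.2) (hr _)⟩
  have hf : Function.Surjective f := by
    rintro ⟨g, hg⟩
    obtain ⟨p, hp, e⟩ := hc g hg
    exact ⟨(⟨p, hp⟩, ⟨_, e⟩), Subtype.ext (by simp [f])⟩
  have hb : Function.Bijective f := hf.bijective_of_nat_card_le (by simpa using hn)
  intro p hp q hq e
  have := hb.1 (a₁ := (⟨p, hp⟩, 1)) (a₂ := (⟨q, hq⟩, ⟨_, e⟩)) (Subtype.ext (by simp [f]))
  simpa using congrArg (fun x => x.1.1) this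

/-- The images of the two base points as one number. -/
noncomputable def key (img : ℕ → ℕ → ℕ) (b : ℕ) (w : List ℕ) : ℕ :=
  Nat.add (trF img w (nat_lit 0)) (Nat.mul (nat_lit 8192) (trF img w b))

/-- Equality of the values of two words. -/
noncomputable def eqB (img : ℕ → ℕ → ℕ) (b : ℕ) (u w : List ℕ) : Bool :=
  andB (Nat.beq (trF img u (nat_lit 0)) (trF img w (nat_lit 0)))
    (Nat.beq (trF img u b) (trF img w b))

/-- A complete and faithful coset table of `K`. -/
structure Orc (K S : Subgroup G) (r ev : ℕ → G) (img : ℕ → ℕ → ℕ) (n b : ℕ) : Prop where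
  cf : CF S r ev img n
  r0 : r 0 = 1
  pos : 0 < n
  le : n ≤ 8192
  hb : b < n
  inj : ∀ p < n, ∀ q < n, RC S (r p) (r q) → p = q
  cov : ∀ g ∈ K, ∃ p < n, RC S g (r p)
  free : ∀ s ∈ S, r b * s * (r b)⁻¹ ∈ S → s = 1
  mem : ∀ x, ev x ∈ K

theorem Orc.memW (h : Orc K S r ev img n b) (w : List ℕ) : evL ev w ∈ K :=
  evL_mem_of_letters fun x _ => h.mem x

theorem Orc.pt (h : Orc K S r ev img n b) {u w : List ℕ} (e : evL ev u = evL ev w) {p : ℕ}
    (hp : p < n) : trF img u p = trF img w p := by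
  obtain ⟨a1, a2⟩ := h.cf.tr u hp
  obtain ⟨a3, a4⟩ := h.cf.tr w hp
  rw [e] at a2
  exact h.inj _ a1 _ a3 (a2.symm.trans a4)

theorem Orc.eq_of (h : Orc K S r ev img n b) {u w : List ℕ} (e1 : trF img u 0 = trF img w 0)
    (e2 : trF img u b = trF img w b) : evL ev u = evL ev w := by
  have a1 := (h.cf.tr u h.pos).2
  have a2 := (h.cf.tr w h.pos).2
  have a3 := (h.cf.tr u h.hb).2
  have a4 := (h.cf.tr w h.hb).2
  rw [h.r0, one_mul] at a1 a2
  rw [e1] at a1
  rw [e2] at a3
  have a5 : evL ev u * (evL ev w)⁻¹ ∈ S := a1.trans a2.symm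
  have a6 : r b * evL ev u * (r b * evL ev w)⁻¹ ∈ S := a3.trans a4.symm
  rw [← mul_inv_eq_one]
  refine h.free _ a5 ?_
  convert a6 using 1
  group

theorem Orc.eqB_iff (h : Orc K S r ev img n b) {u w : List ℕ} :
    eqB img b u w = true ↔ evL ev u = evL ev w := by
  unfold eqB
  rw [andB_eq_true, Nat.beq_eq, Nat.beq_eq]
  exact ⟨fun e => h.eq_of e.1 e.2, fun e => ⟨h.pt e h.pos, h.pt e h.hb⟩⟩

theorem Orc.key_iff (h : Orc K S r ev img n b) {u w : List ℕ} :
    key img b u = key img b w ↔ evL ev u = evL ev w := by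
  constructor
  · intro e
    have e' : trF img u 0 + 8192 * trF img u b = trF img w 0 + 8192 * trF img w b := e
    have a1 := (h.cf.tr u h.pos).1
    have a2 := (h.cf.tr w h.pos).1
    have := h.le
    exact h.eq_of (by omega) (by omega)
  · intro e
    unfold key
    rw [h.pt e h.hb]
    exact congrArg (fun x => Nat.add x _) (h.pt e h.pos)

theorem Orc.ne_iff (h : Orc K S r ev img n b) {u w : List ℕ} :
    (!eqB img b u w) = true ↔ evL ev u ≠ evL ev w := by
  rw [Bool.not_eq_true', ne_eq, ← h.eqB_iff, Bool.not_eq_true]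

/-- The point of an element that conjugates a word into the subgroup is fixed by the word. -/
theorem Orc.fix (h : Orc K S r ev img n b) {g : G} {p : ℕ} (hp : p < n) (e : RC S g (r p))
    {w : List ℕ} (hw : g * evL ev w * g⁻¹ ∈ S) : trF img w p = p := by
  obtain ⟨a1, a2⟩ := h.cf.tr w hp
  refine h.inj _ a1 _ hp (a2.symm.trans (((e.symm.mul _).trans ?_).trans e))
  exact hw

/-! ### The subgroup of order 21 -/

/-- Relations of the Frobenius group of order 21. -/
structure F21 (X W : G) : Prop where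
  x7 : X ^ 7 = 1
  w3 : W ^ 3 = 1
  cj : W * X * W⁻¹ = X ^ 2

theorem F21.comm {X W : G} (h : F21 X W) (j i : ℕ) : W ^ j * X ^ i = X ^ (i * 2 ^ j) * W ^ j := by
  induction j generalizing i with
  | zero => simp
  | succ j ih =>
    have h1 : W * X ^ i = X ^ (2 * i) * W := by
      rw [pow_mul, ← h.cj, conj_pow]; group
    rw [pow_succ, mul_assoc, h1, ← mul_assoc, ih, mul_assoc, pow_succ]
    congr 2; ring

theorem F21.mul {X W : G} (h : F21 X W) (i j k l : ℕ) :
    X ^ i * W ^ j * (X ^ k * W ^ l) = X ^ (i + k * 2 ^ j) * W ^ (j + l) := by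
  rw [mul_assoc, ← mul_assoc (W ^ j), h.comm, pow_add, pow_add]; group

theorem F21.enum [Finite G] {X W : G} (h : F21 X W) {s : G} (hs : s ∈ Subgroup.closure {X, W}) :
    ∃ i < 7, ∃ j < 3, s = X ^ i * W ^ j := by
  have h' : s ∈ Submonoid.closure {X, W} := by
    rw [← Subgroup.closure_toSubmonoid_of_finite]; exact hs
  clear hs
  have : ∃ i j : ℕ, s = X ^ i * W ^ j := by
    induction h' using Submonoid.closure_induction with
    | mem x hx =>
      rcases hx with rfl | rfl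
      · exact ⟨1, 0, by simp⟩
      · exact ⟨0, 1, by simp⟩
    | one => exact ⟨0, 0, by simp⟩
    | mul x y _ _ hx hy =>
      obtain ⟨i, j, rfl⟩ := hx
      obtain ⟨k, l, rfl⟩ := hy
      exact ⟨_, _, h.mul i j k l⟩
  obtain ⟨i, j, rfl⟩ := this
  exact ⟨i % 7, Nat.mod_lt _ (by norm_num), j % 3, Nat.mod_lt _ (by norm_num), by
    rw [← pow_eq_pow_mod i h.x7, ← pow_eq_pow_mod j h.w3]⟩

theorem F21.card_le [Finite G] {X W : G} (h : F21 X W) :
    Nat.card (Subgroup.closure {X, W}) ≤ 21 := by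
  let f : Fin 7 × Fin 3 → Subgroup.closure {X, W} := fun x => ⟨X ^ x.1.1 * W ^ x.2.1,
    mul_mem (pow_mem (Subgroup.subset_closure (by simp)) _)
      (pow_mem (Subgroup.subset_closure (by simp)) _)⟩
  have hf : Function.Surjective f := by
    rintro ⟨s, hs⟩
    obtain ⟨i, hi, j, hj, e⟩ := h.enum hs
    exact ⟨(⟨i, hi⟩, ⟨j, hj⟩), Subtype.ext e.symm⟩
  simpa using Nat.card_le_card_of_surjective f hf

theorem F21.pow21 [Finite G] {X W : G} (h : F21 X W) {s : G} (hs : s ∈ Subgroup.closure {X, W}) :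
    s ^ 21 = 1 := by
  obtain ⟨i, _, j, _, rfl⟩ := h.enum hs
  have h3 : (X ^ i * W ^ j) ^ 3 = X ^ (i + i * 2 ^ j + i * 2 ^ (j + j)) := by
    rw [pow_three', h.mul, h.mul, show j + j + j = 3 * j by ring, pow_mul W, h.w3, one_pow, mul_one]
  rw [show 21 = 3 * 7 by rfl, pow_mul, h3, ← pow_mul, mul_comm, pow_mul, h.x7, one_pow]

theorem F21.eq_one [Finite G] {X W : G} (h : F21 X W) {s : G} (hs : s ∈ Subgroup.closure {X, W})
    (h4 : s ^ 4 = 1) : s = 1 := by
  have h1 := h.pow21 hs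
  rwa [show 21 = 4 * 5 + 1 by rfl, pow_succ, pow_mul, h4, one_pow, one_mul] at h1

/-- The non-trivial elements of the subgroup move the point `b`. -/
noncomputable def freeChk (img : ℕ → ℕ → ℕ) (b : ℕ) : Bool :=
  (List.range 7).all fun i => (List.range 3).all fun j =>
    Nat.beq (i + j) 0 || !Nat.beq (trF img (rp i [1] ++ rp j [3]) b) b

theorem Orc.mk' [Finite G] (hF : F21 (ev 1) (ev 3))
    (cf : CF (Subgroup.closure {ev 1, ev 3}) r ev img n) (r0 : r 0 = 1) (hn : 0 < n ∧ n ≤ 8192)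
    (hb : b < n) (hK : K = Subgroup.closure (Set.range ev)) (hr : ∀ p, r p ∈ K)
    (hc : n * 21 ≤ Nat.card K) (hf : freeChk img b = true) :
    Orc K (Subgroup.closure {ev 1, ev 3}) r ev img n b := by
  have hm : ∀ x, ev x ∈ K := fun x => hK ▸ Subgroup.subset_closure ⟨x, rfl⟩
  have hcov : ∀ g ∈ K, ∃ p < n, RC (Subgroup.closure {ev 1, ev 3}) g (r p) :=
    fun g hg => cf.cov r0 hn.1 (hK ▸ hg)
  have hinj := inj_of_card (K := K) ((Subgroup.closure_le _).mpr (by
    rintro _ (rfl | rfl) <;> exact hm _)) hr hcov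
    ((Nat.mul_le_mul_left _ hF.card_le).trans hc)
  refine ⟨cf, r0, hn.1, hn.2, hb, hinj, hcov, fun s hs h1 => ?_, hm⟩
  obtain ⟨i, hi, j, hj, e⟩ := hF.enum hs
  unfold freeChk at hf
  simp only [List.all_eq_true, List.mem_range, Bool.or_eq_true, Nat.beq_eq, Bool.not_eq_true',
    ← Bool.not_eq_true] at hf
  rcases hf i hi j hj with h2 | h2
  · obtain ⟨rfl, rfl⟩ : i = 0 ∧ j = 0 := by omega
    simpa using e
  · refine absurd ?_ h2
    obtain ⟨a1, a2⟩ := cf.tr (rp i [1] ++ rp j [3]) hb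
    rw [evL_append, evL_rp, evL_rp, evL_singleton, evL_singleton, ← e] at a2
    exact hinj _ a1 _ hb (a2.symm.trans h1)

/-- Entry `p` of a table of 13-bit numbers. -/
noncomputable def look (t p : ℕ) : ℕ :=
  Nat.land (Nat.shiftRight t (Nat.mul (nat_lit 13) p)) (nat_lit 8191)

theorem sel_le {p y a c : ℕ} (h : p ≤ y) : sel p y a c = c := by
  unfold sel; rw [Nat.ble_eq_true_of_le h]

theorem sel_lt {p y a c : ℕ} (h : y < p) : sel p y a c = a := by
  unfold sel
  have : Nat.ble p y = false := by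
    rw [← Bool.not_eq_true, Nat.ble_eq]; omega
  rw [this]

end Cfsg.ON
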