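import Cfsg.Agent.ON.Fam

/-! The oracle for the perfect group and for its extensions of degree two. -/

set_option autoImplicit false
set_option maxRecDepth 100000

namespace Cfsg.ON

open Cfsg.H6 Subgroup

variable {G : Type*} [Group G] {K : Subgroup G} {t u X W Y h : G} {p : ℕ} {I : ℕ → ℕ → ℕ → ℕ}

theorem Mdl.orc [Finite G] (hM : Mdl K u X W Y p) (hI : Fam I p) :
    Orc K (closure {X, W}) (repZ (evH X W Y u 1) u) (evH X W Y u 1) (I tid) 3840 36 := by
  have hK := hM.tri.range hM.tri.zK
  refine Orc.mk' (ev := evH X W Y u 1) hM.tri.f (hM.cf.congr fun x q hq => (hI.eq x q hq).1)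
    repZ_zero (by norm_num) (by norm_num) hK (fun q => mul_mem (pow_mem hM.tri.zK _)
      (rep_mem (fun x => hK ▸ subset_closure ⟨x, rfl⟩) _)) (by rw [hM.tri.card]) hI.free

theorem RC.lmul {S : Subgroup G} (hS : ∀ s ∈ S, h * s * h⁻¹ ∈ S) {a b : G} (e : RC S a b) :
    RC S (h * a) (h * b) := by
  have := hS _ e
  unfold RC
  convert this using 1
  group

def sg (a b c x : ℕ) : List ℕ :=
  [[], rp a [1], rp a [2], [3], [4], rp b [5], rp b [6], rp c [7]].getD x []

/-- The element outside and its action. -/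
structure Cand (K : Subgroup G) (t u X W Y h : G) (p a b c m : ℕ) : Prop where
  mdl : Mdl K u X W Y p
  hyp : Hyp t K
  hC : h ∈ centralizer {t}
  hK : h ∉ K
  cx : h⁻¹ * X * h = X ^ a
  cw : h⁻¹ * W * h = W
  cy : h⁻¹ * Y * h = Y ^ b
  cu : h⁻¹ * u * h = u ^ c
  sq : h * h = u ^ m
  ct : t = u ^ 2

noncomputable def extChk (I : ℕ → ℕ → ℕ → ℕ) (th a b c m : ℕ) : Bool :=
  Nat.beq (I th 8 0) 3840 &&
  allR (fun q => andB (andB (Nat.ble 3840 (I th 8 q)) (Nat.blt (I th 8 q) 7680))
    (andB (Nat.beq (I th 8 (Nat.add 3840 q)) (trF (I tid) (rp m [7]) (Nat.sub (I th 8 q) 3840)))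
      (allR (fun x => Nat.beq (Nat.sub (I th 8 (I tid x q)) 3840)
        (trF (I tid) (sg a b c x) (Nat.sub (I th 8 q) 3840))) 1 7))) 0 3840 &&
  freeChk (I th) 36

/-- The representatives for the extension. -/
noncomputable def repH (X W Y u h : G) (q : ℕ) : G :=
  if q < 3840 then repZ (evH X W Y u 1) u q else h * repZ (evH X W Y u 1) u (q - 3840)

theorem evH_ne {x : ℕ} (hx : x ≠ 8) : evH X W Y u h x = evH X W Y u 1 x := by
  by_cases h9 : 9 ≤ x
  · rw [evH_ge h9, evH_ge h9]
  · have : x < 8 := by omega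
    interval_cases x <;> rfl

theorem Cand.orc [Finite G] {a b c m th : ℕ} (hc : Cand K t u X W Y h p a b c m) (hI : Fam I p)
    (hk : extChk I th a b c m = true) :
    Orc (centralizer {t}) (closure {X, W}) (repH X W Y u h) (evH X W Y u h) (I th) 7680 36 := by
  have O := hc.mdl.orc hI
  unfold extChk at hk
  rw [Bool.and_eq_true, Bool.and_eq_true, Nat.beq_eq] at hk
  obtain ⟨⟨k0, k1⟩, k2⟩ := hk
  have k3 : ∀ q < 3840, 3840 ≤ I th 8 q ∧ I th 8 q < 7680 ∧
      I th 8 (3840 + q) = trF (I tid) (rp m [7]) (I th 8 q - 3840) ∧ ∀ x, 1 ≤ x → x < 8 →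
        I th 8 (I tid x q) - 3840 = trF (I tid) (sg a b c x) (I th 8 q - 3840) := fun q hq => by
    have := allR_spec k1 q (Nat.zero_le _) (by omega)
    rw [andB_eq_true, andB_eq_true, andB_eq_true, Nat.ble_eq, Nat.blt_eq, Nat.beq_eq] at this
    exact ⟨this.1.1, this.1.2, this.2.1, fun x h1 h2 =>
      Nat.eq_of_beq_eq_true (allR_spec this.2.2 x h1 (by omega))⟩
  have s1 : ∀ s ∈ closure {X, W}, h⁻¹ * s * h⁻¹⁻¹ ∈ closure {X, W} := by
    intro s hs
    have : closure {X, W} ≤ (closure {X, W}).comap (MulAut.conj h⁻¹).toMonoidHom := by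
      rw [closure_le]
      rintro _ (rfl | rfl)
      · simpa [hc.cx] using pow_mem (subset_closure (by simp)) _
      · simpa [hc.cw] using Subgroup.subset_closure (k := {X, _}) (Set.mem_insert_of_mem _ rfl)
    simpa using this hs
  have s2 : ∀ s ∈ closure {X, W}, h * s * h⁻¹ ∈ closure {X, W} := by
    have : h⁻¹ ∈ normalizer ((closure {X, W} : Subgroup G) : Set G) :=
      mem_normalizer_fintype s1
    exact fun s hs => (mem_normalizer_iff.mp (inv_mem_iff.mp this) s).mp hs
  have hσ : ∀ x, 1 ≤ x → x < 8 → h⁻¹ * evH X W Y u 1 x * h = evL (evH X W Y u 1) (sg a b c x) := by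
    intro x h1 h2
    have i : ∀ g : G, h⁻¹ * g⁻¹ * h = (h⁻¹ * g * h)⁻¹ := fun g => by group
    interval_cases x <;>
      simp only [sg, List.getD_cons_succ, List.getD_cons_zero, evL_rp, evL_singleton, evH, evM]
    exacts [hc.cx, by rw [i, hc.cx, inv_pow], hc.cw, by rw [i, hc.cw], hc.cy, by rw [i, hc.cy, inv_pow], hc.cu]
  set r := repZ (evH X W Y u 1) u with hr
  have P : ∀ q < 3840, RC (closure {X, W}) (h⁻¹ * r q * h) (r (I th 8 q - 3840)) := by
    have step : ∀ (w : List ℕ) q, q < 3840 → RC (closure {X, W}) (h⁻¹ * r q * h) (r (I th 8 q - 3840)) →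
        RC (closure {X, W}) (h⁻¹ * r (trF (I tid) w q) * h) (r (I th 8 (trF (I tid) w q) - 3840)) := by
      intro w
      induction w with
      | nil => intro q _ e; exact e
      | cons x w ih =>
        intro q hq e
        rw [trF_eq, tr_cons, ← trF_eq]
        obtain ⟨c1, c2⟩ := O.cf x q hq
        refine ih _ c1 ?_
        by_cases hx : 1 ≤ x ∧ x < 8
        · obtain ⟨d1, d2, -, d4⟩ := k3 q hq
          rw [d4 x hx.1 hx.2]
          refine ((RC.lmul s1 c2.symm).mul h).trans (RC.trans ?_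
            (O.cf.tr (sg a b c x) (p := I th 8 q - 3840) (by omega)).2)
          have := e.mul (h⁻¹ * evH X W Y u 1 x * h)
          rw [← hσ x hx.1 hx.2]
          convert this using 1
          group
        · have : I tid x q = q := by
            rw [(hI.eq x q hq).1, imgF, if_neg (by omega), if_neg (by omega)]
          rw [this]; exact e
    intro q hq
    have hK := hc.mdl.tri.range hc.mdl.tri.zK
    obtain ⟨w, hw⟩ := exists_word (ev := evH X W Y u 1) (g := r q) (mul_mem
      (pow_mem (hK ▸ hc.mdl.tri.zK) _) (rep_mem (fun x => Subgroup.subset_closure (Set.mem_range_self x)) _))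
    obtain ⟨c1, c2⟩ := O.cf.tr w O.pos
    rw [O.r0, one_mul, hw] at c2
    rw [O.inj _ hq _ c1 c2]
    refine step w 0 O.pos ?_
    rw [k0, O.r0]
    simpa using RC.refl _ _
  have cf : CF (closure {X, W}) (repH X W Y u h) (evH X W Y u h) (I th) 7680 := by
    intro x q hq
    unfold repH
    rw [← hr]
    by_cases h8 : x = 8
    · subst h8
      have e8 : evH X W Y u h 8 = h := rfl
      rw [e8]
      by_cases h1 : q < 3840
      · obtain ⟨d1, d2, -, -⟩ := k3 q h1
        rw [if_pos h1, if_neg (by omega)]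
        refine ⟨d2, ?_⟩
        have := RC.lmul s2 (P q h1)
        convert this using 1
        group
      · obtain ⟨q, rfl⟩ : ∃ q', q = 3840 + q' := ⟨q - 3840, by omega⟩
        obtain ⟨d1, d2, d3, -⟩ := k3 q (by omega)
        obtain ⟨c1, c2⟩ := O.cf.tr (rp m [7]) (p := I th 8 q - 3840) (by omega)
        rw [d3, if_neg h1, if_pos c1, Nat.add_sub_cancel_left]
        refine ⟨by omega, RC.trans ?_ c2⟩
        rw [evL_rp, evL_singleton]
        have e7 : evH X W Y u 1 7 = u := rfl
        have := hc.mdl.tl.zmul (P q (by omega)) m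
        have cm : Commute u (r (I th 8 q - 3840)) :=
          ((Commute.refl u).pow_right _).mul_right (hc.mdl.tl.cenR _)
        rw [e7, ← (cm.pow_left m).eq]
        have e9 : h * r q * h = u ^ m * (h⁻¹ * r q * h) := by rw [← hc.sq]; group
        rw [e9]
        exact this
    · rw [hI.ne _ _ _ h8, evH_ne h8]
      by_cases h1 : q < 3840
      · obtain ⟨c1, c2⟩ := O.cf x q h1
        rw [if_pos h1, if_pos c1]
        exact ⟨by omega, c2⟩
      · obtain ⟨q, rfl⟩ : ∃ q', q = 3840 + q' := ⟨q - 3840, by omega⟩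
        obtain ⟨c1, c2⟩ := O.cf x q (by omega)
        rw [(hI.eq x q (by omega)).2, if_neg h1, if_neg (by omega), Nat.add_sub_cancel_left,
          Nat.add_sub_cancel_left, mul_assoc]
        exact ⟨by omega, RC.lmul s2 c2⟩
  have hK := hc.mdl.tri.range hc.mdl.tri.zK
  have le : K ≤ closure (Set.range (evH X W Y u h)) := by
    rw [hK, closure_le]
    rintro _ ⟨x, rfl⟩
    by_cases h8 : x = 8
    · rw [h8]; exact one_mem _
    · rw [← evH_ne (h := h) h8]; exact subset_closure ⟨x, rfl⟩
  have hC : centralizer {t} = closure (Set.range (evH X W Y u h)) := by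
    apply le_antisymm
    · intro g hg
      by_cases h1 : g ∈ K
      · exact le h1
      · have := le ((hc.hyp.two g hg h hc.hC).mpr (iff_of_false h1 hc.hK))
        exact (mul_mem_cancel_right (Subgroup.subset_closure (Set.mem_range_self (f := evH X W Y u h) 8))).mp this
    · rw [closure_le]
      rintro _ ⟨x, rfl⟩
      by_cases h8 : x = 8
      · rw [h8]; exact hc.hC
      · rw [evH_ne h8]; exact hc.hyp.le (O.mem x)
  have mr : ∀ q, r q ∈ centralizer {t} := fun q => hc.hyp.le (mul_mem (pow_mem hc.mdl.tri.zK _)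
    (rep_mem O.mem _))
  refine Orc.mk' (ev := evH X W Y u h) hc.mdl.tri.f cf (by rw [repH, if_pos (by norm_num), repZ_zero])
    (by norm_num) (by norm_num) hC (fun q => ?_) (by rw [hc.hyp.card]) k2
  unfold repH
  split_ifs
  · exact mr _
  · exact mul_mem hc.hC (mr _)

end Cfsg.ON
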