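import Cfsg.Agent.ON.Lift
import Cfsg.Agent.ON.TabD

/-! Families of tables. -/

set_option autoImplicit false
set_option maxRecDepth 100000

namespace Cfsg.ON

open Cfsg.H6 Subgroup

noncomputable def mkI (t1 t2 t3 t4 t5 t6 t7 t8 x p : ℕ) : ℕ :=
  sel (nat_lit 5) x
    (sel (nat_lit 3) x (sel (nat_lit 2) x (sel (nat_lit 1) x p (look t1 p)) (look t2 p))
      (sel (nat_lit 4) x (look t3 p) (look t4 p)))
    (sel (nat_lit 7) x (sel (nat_lit 6) x (look t5 p) (look t6 p))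
      (sel (nat_lit 8) x (look t7 p) (sel (nat_lit 9) x (look t8 p) p)))

theorem mkI_out {t1 t2 t3 t4 t5 t6 t7 t8 x p : ℕ} (h : x = 0 ∨ 9 ≤ x) :
    mkI t1 t2 t3 t4 t5 t6 t7 t8 x p = p := by
  unfold mkI
  rcases h with rfl | h
  · rfl
  · rw [sel_le (le_trans (by decide) h), sel_le (le_trans (by decide) h),
      sel_le (le_trans (by decide) h), sel_le h]

theorem mkI_ne {t1 t2 t3 t4 t5 t6 t7 t8 t9 x p : ℕ} (h : x ≠ 8) :
    mkI t1 t2 t3 t4 t5 t6 t7 t8 x p = mkI t1 t2 t3 t4 t5 t6 t7 t9 x p := by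
  by_cases h9 : 9 ≤ x
  · rw [mkI_out (Or.inr h9), mkI_out (Or.inr h9)]
  · have : x < 8 := by omega
    interval_cases x <;> rfl

noncomputable def iA (th : ℕ) : ℕ → ℕ → ℕ := mkI ta1 ta2 ta3 ta4 ta5 ta6 ta7 th
noncomputable def iB (th : ℕ) : ℕ → ℕ → ℕ := mkI tb1 tb2 tb3 tb4 tb5 tb6 tb7 th

/-- The tables agree with the formula. -/
noncomputable def tabChk (img : ℕ → ℕ → ℕ) (p : ℕ) : Bool :=
  allR (fun x => allR (fun q => andB (Nat.beq (img x q) (imgF (kp p) x q))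
    (Nat.beq (img x (Nat.add 3840 q)) (Nat.add 3840 (img x q)))) 0 3840) 1 8

theorem tabA : tabChk (iA tid) 0 = true := by decide +kernel
theorem tabB : tabChk (iB tid) 2 = true := by decide +kernel

/-- A family of tables for the tails `p`. -/
structure Fam (I : ℕ → ℕ → ℕ → ℕ) (p : ℕ) : Prop where
  out : ∀ th x q, x = 0 ∨ 9 ≤ x → I th x q = q
  ne : ∀ th x q, x ≠ 8 → I th x q = I tid x q
  chk : tabChk (I tid) p = true
  free : freeChk (I tid) 36 = true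

theorem famA : Fam iA 0 := ⟨fun _ _ _ => mkI_out, fun _ _ _ => mkI_ne, tabA, by decide +kernel⟩
theorem famB : Fam iB 2 := ⟨fun _ _ _ => mkI_out, fun _ _ _ => mkI_ne, tabB, by decide +kernel⟩

theorem Fam.eq {I : ℕ → ℕ → ℕ → ℕ} {p : ℕ} (h : Fam I p) (x q : ℕ) (hq : q < 3840) :
    I tid x q = imgF (kp p) x q ∧ I tid x (3840 + q) = 3840 + I tid x q := by
  by_cases hx : x = 0 ∨ 9 ≤ x
  · rw [h.out _ _ _ hx, h.out _ _ _ hx, imgF, if_neg (by omega), if_neg (by omega)]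
    exact ⟨rfl, rfl⟩
  · have := allR_spec (allR_spec h.chk x (by omega) (by omega)) q (Nat.zero_le _) (by omega)
    rwa [andB_eq_true, Nat.beq_eq, Nat.beq_eq] at this

end Cfsg.ON
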