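import Cfsg.Agent.ON.Aut
import Cfsg.Agent.H5.ZStar

/-! Classes of involutions in the centraliser, fusion, and the local test. -/

set_option autoImplicit false
set_option maxRecDepth 100000

namespace Cfsg.ON

open Cfsg.H6 Subgroup

variable {G : Type*} [Group G]

def incr : List ℕ → Bool
  | a :: b :: l => Nat.blt a b && incr (b :: l)
  | _ => true

theorem incr_spec : ∀ {l : List ℕ}, incr l = true → l.Pairwise (· < ·)
  | [], _ => List.Pairwise.nil
  | [_], _ => List.pairwise_singleton _ _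
  | a :: b :: l, h => by
    simp only [incr, Bool.and_eq_true, Nat.blt_eq] at h
    have h1 := incr_spec h.2
    refine List.pairwise_cons.mpr ⟨fun c hc => ?_, h1⟩
    rcases List.mem_cons.mp hc with rfl | hc
    · exact h.1
    · exact h.1.trans ((List.pairwise_cons.mp h1).1 c hc)

theorem pg2 {a b : G} (ha : a * a = 1) (hb : b * b = 1) (c : Commute a b) :
    IsPGroup 2 (closure {a, b} : Subgroup G) := by
  rintro ⟨x, hx⟩
  refine ⟨1, Subtype.ext ?_⟩
  show x ^ 2 ^ 1 = 1
  have : x * x = 1 ∧ Commute x a ∧ Commute x b ∧ ∀ y ∈ closure {a, b}, Commute x y := by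
    have k : ∀ x, Commute x a → Commute x b → ∀ y ∈ closure {a, b}, Commute x y := by
      intro x h1 h2 y hy
      have : closure {a, b} ≤ centralizer {x} := by
        rw [closure_le]
        rintro _ (rfl | rfl) <;> rw [SetLike.mem_coe, mem_centralizer_singleton_iff]
        exacts [h1.symm.eq, h2.symm.eq]
      exact (show Commute y x from mem_centralizer_singleton_iff.mp (this hy)).symm
    induction hx using closure_induction with
    | mem x hx =>
      rcases hx with rfl | rfl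
      · exact ⟨ha, Commute.refl _, c, k _ (Commute.refl _) c⟩
      · exact ⟨hb, c.symm, Commute.refl _, k _ c.symm (Commute.refl _)⟩
    | one => simp
    | mul x y _ hy h1 h2 =>
      refine ⟨?_, h1.2.1.mul_left h2.2.1, h1.2.2.1.mul_left h2.2.2.1,
        fun z hz => (h1.2.2.2 z hz).mul_left (h2.2.2.2 z hz)⟩
      rw [mul_assoc, ← mul_assoc y, ← (h1.2.2.2 y hy).eq, mul_assoc, h2.1, mul_one, h1.1]
    | inv x _ h1 =>
      exact ⟨by rw [← mul_inv_rev, h1.1, inv_one], h1.2.1.inv_left, h1.2.2.1.inv_left,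
        fun z hz => (h1.2.2.2 z hz).inv_left⟩
  rw [pow_one, sq, this.1]

/-- The situation: an oracle for the centraliser of `t`. -/
structure Sit (t : G) (K S : Subgroup G) (r ev : ℕ → G) (img : ℕ → ℕ → ℕ) : Prop where
  orc : Orc (centralizer {t}) S r ev img 7680 36
  hyp : Hyp t K
  wd : ∀ g ∈ centralizer {t}, ∃ w, evL ev w = g
  inK : ∀ w, evL ev w ∈ K ↔ trF img w 0 < 3840
  inv : ∀ w, inR 7 w = true → evL ev (invW 0x05060304010200 w) = (evL ev w)⁻¹
  t2 : t = ev 7 * ev 7
  cen : ∀ k ∈ K, Commute (ev 7) k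
  nu : ∀ x ∈ centralizer {t}, x⁻¹ * ev 7 * x = ev 7 ∨ x⁻¹ * ev 7 * x = (ev 7)⁻¹

theorem Cand.sit [Finite G] {K : Subgroup G} {t u X W Y h : G} {p a b c m th : ℕ}
    {I : ℕ → ℕ → ℕ → ℕ} (hc : Cand K t u X W Y h p a b c m) (hI : Fam I p)
    (hk : extChk I th a b c m = true) (c13 : c = 1 ∨ c = 3) :
    Sit t K (closure {X, W}) (repH X W Y u h) (evH X W Y u h) (I th) := by
  have O := hc.orc hI hk
  have O0 := hc.mdl.orc hI
  obtain ⟨mX, mW, mY⟩ := hc.mdl.tri.mem
  have hK := hc.mdl.tri.range hc.mdl.tri.zK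
  have mr : ∀ q, repZ (evH X W Y u 1) u q ∈ K := fun q => mul_mem (pow_mem hc.mdl.tri.zK _)
    (rep_mem O0.mem _)
  have dec : ∀ x ∈ centralizer {t}, x ∈ K ∨ ∃ k ∈ K, x = h * k := fun x hx => by
    by_cases h1 : x ∈ K
    · exact Or.inl h1
    · exact Or.inr ⟨h⁻¹ * x, (hc.hyp.two _ (inv_mem hc.hC) _ hx).mpr
        (iff_of_false (fun e => hc.hK (inv_mem_iff.mp e)) h1), by group⟩
  refine ⟨O, hc.hyp, fun g hg => ?_, fun w => ?_, fun w hw => ?_, hc.ct.trans (pow_two u),
    hc.mdl.tri.cen, fun x hx => ?_⟩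
  · have k : ∀ k ∈ K, k ∈ closure (Set.range (evH X W Y u h)) := by
      rw [← hc.mdl.tri.gen]
      refine (closure_le _).mpr ?_
      rintro _ (rfl | rfl | rfl)
      exacts [Subgroup.subset_closure ⟨1, rfl⟩, Subgroup.subset_closure ⟨3, rfl⟩,
        Subgroup.subset_closure ⟨5, rfl⟩]
    apply exists_word
    rcases dec g hg with h1 | ⟨k1, h1, rfl⟩
    · exact k _ h1
    · exact mul_mem (Subgroup.subset_closure ⟨8, rfl⟩) (k _ h1)
  · obtain ⟨a1, a2⟩ := O.cf.tr w O.pos
    rw [O.r0, one_mul] at a2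
    have a3 : closure {X, W} ≤ K := (closure_le _).mpr (by rintro _ (rfl | rfl) <;> assumption)
    have a4 := a3 a2
    rw [← mul_mem_cancel_left (inv_mem a4)]
    simp only [mul_inv_rev, inv_inv, inv_mul_cancel_right, repH]
    split_ifs with h1
    · exact iff_of_true (mr _) h1
    · exact iff_of_false (fun e => hc.hK ((mul_mem_cancel_right (mr _)).mp e)) h1
  · have hw' := inR_spec hw
    clear hw
    induction w with
    | nil => simp [invW, evL]
    | cons x w ih =>
      have : invW 0x05060304010200 (x :: w) =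
        invW 0x05060304010200 w ++ [invL 0x05060304010200 x] := by simp [invW]
      rw [this, evL_append, ih fun y hy => hw' y (by simp [hy]), evL_singleton, evL_cons, mul_inv_rev]
      congr 1
      obtain ⟨h1, h2⟩ := hw' x (by simp)
      interval_cases x
      exacts [rfl, (inv_inv _).symm, rfl, (inv_inv _).symm, rfl, (inv_inv _).symm]
  · show x⁻¹ * u * x = u ∨ x⁻¹ * u * x = u⁻¹
    rcases dec x hx with h1 | ⟨k, h1, rfl⟩
    · left; rw [mul_assoc, (hc.mdl.tri.cen x h1).eq]; simp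
    · have : (h * k)⁻¹ * u * (h * k) = u ^ c := by
        calc _ = k⁻¹ * (h⁻¹ * u * h * k) := by group
          _ = _ := by rw [hc.cu, ((hc.mdl.tri.cen k h1).pow_left c).eq]; simp
      rw [this]
      rcases c13 with rfl | rfl
      · left; simp
      · right; rw [eq_inv_iff_mul_eq_one, ← pow_succ, hc.mdl.tri.z4]

/-- Data for the classes of involutions. -/
structure KD where
  y : List ℕ
  s : List ℕ
  LC : List (List ℕ)
  LD : List (List ℕ)
  R : List (List ℕ)
  E : List (ℕ × ℕ × List ℕ × List ℕ)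
  Q : List (List ℕ × List ℕ)

namespace KD

variable (D : KD) (img : ℕ → ℕ → ℕ)

noncomputable def cjW (r w : List ℕ) : List ℕ := invW 0x05060304010200 w ++ r ++ w

noncomputable def chk1 : Bool :=
  eqB img 36 (D.y ++ D.y) [] && !eqB img 36 D.y [7, 7] && Nat.blt (trF img D.y 0) 3840 &&
  eqB img 36 (D.y ++ D.s) (D.s ++ D.y ++ [7, 7]) &&
  Nat.beq D.LC.length 630 && D.LC.all (inR 7) && incr (D.LC.map fun w => key img 36 (cjW D.y w)) &&
  Nat.beq D.LD.length 256 && (D.LD.all fun w => eqB img 36 (w ++ D.y) (D.y ++ w)) &&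
  incr (D.LD.map (key img 36))

noncomputable def clsB (x : List ℕ) : Bool :=
  !eqB img 36 (x ++ x) [] || eqB img 36 x [] || eqB img 36 x [7, 7] ||
    frcB (fun k => D.E.any fun e => Nat.beq e.1 k) (key img 36 x)

noncomputable def chk2 : Bool :=
  (D.E.all fun e => inR 7 e.2.2.1 && Nat.beq (key img 36 (cjW (D.R.getD e.2.1 []) e.2.2.1)) e.1 &&
    Nat.beq (key img 36 e.2.2.2) e.1 &&
    (Nat.beq e.2.1 0 || Nat.ble 3840 (trF img (D.R.getD e.2.1 []) 0))) &&
  eqB img 36 (D.R.getD 0 []) D.y &&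
  D.LD.all fun w => D.clsB img w && D.clsB img (w ++ D.s)

noncomputable def o2 (a : List ℕ) (q : List ℕ × List ℕ) : Bool :=
  eqB img 36 (q.1 ++ a) (a ++ q.1) && eqB img 36 (q.2 ++ a) (a ++ q.2) &&
  eqB img 36 (rp 2 (rp 2 q.1 ++ rp 2 q.2)) [] && !eqB img 36 (rp 2 q.1 ++ rp 2 q.2) [] &&
  !eqB img 36 (rp 2 q.1 ++ rp 2 q.2) [7, 7]

noncomputable def chk3 : Bool :=
  eqB img 36 [7, 8] [8, 7] ||
  D.E.all fun e => Nat.beq e.2.1 0 || (o2 img (D.R.getD e.2.1 []) (D.Q.getD e.2.1 ([], [])) &&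
    D.E.all fun e' => !Nat.beq e'.2.1 0 ||
      !eqB img 36 (e.2.2.2 ++ e'.2.2.2) (e'.2.2.2 ++ e.2.2.2) ||
      frcB (fun k => D.E.all fun e'' => !Nat.beq e''.1 k || Nat.beq e''.2.1 e.2.1)
        (key img 36 (e.2.2.2 ++ e'.2.2.2)))

noncomputable def kill (z z' : List ℕ) : Bool :=
  D.LD.all fun v => !eqB img 36 (v ++ v) D.y ||
    (D.LD.any fun d => !eqB img 36 (v ++ d) (d ++ v) && !eqB img 36 (v ++ d ++ v) d) ||
    ((D.LD.any fun w => eqB img 36 (w ++ w) z' && !eqB img 36 (w ++ v) (v ++ w)) &&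
      D.LD.all fun w => !eqB img 36 (w ++ w) z || eqB img 36 (w ++ [7]) ([7] ++ w))

end KD

variable {t : G} {K S : Subgroup G} {r ev : ℕ → G} {img : ℕ → ℕ → ℕ} {D : KD}

theorem Sit.nodup (h : Sit t K S r ev img) {L : List (List ℕ)} {f : List ℕ → List ℕ}
    (e : incr (L.map fun w => key img 36 (f w)) = true) : (L.map fun w => evL ev (f w)).Nodup := by
  have := incr_spec e
  rw [List.pairwise_map] at this
  rw [List.Nodup, List.pairwise_map]
  exact this.imp fun e e' => e.ne (h.orc.key_iff.mpr e')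

theorem Sit.cjW (h : Sit t K S r ev img) {w : List ℕ} (hw : inR 7 w = true) (a : List ℕ) :
    evL ev (KD.cjW a w) = (evL ev w)⁻¹ * evL ev a * evL ev w := by
  rw [KD.cjW, evL_append, evL_append, h.inv w hw]

theorem Sit.tt (h : Sit t K S r ev img) : t * t = 1 ∧ t ≠ 1 := by
  refine ⟨by rw [← sq, ← h.hyp.ord, pow_orderOf_eq_one], fun e => ?_⟩
  have := h.hyp.ord
  rw [e, orderOf_one] at this
  omega

theorem Sit.sqK (h : Sit t K S r ev img) {x : G} (hx : Commute x t) : x * x ∈ K :=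
  (h.hyp.two x (mem_centralizer_singleton_iff.mpr hx) x
    (mem_centralizer_singleton_iff.mpr hx)).mpr Iff.rfl

/-- What the first check gives. -/
structure Enum (t : G) (K : Subgroup G) (ev : ℕ → G) (D : KD) : Prop where
  y2 : evL ev D.y * evL ev D.y = 1
  yt : evL ev D.y ≠ t
  yK : evL ev D.y ∈ K
  ys : evL ev D.y * evL ev D.s = evL ev D.s * evL ev D.y * t
  cm : ∀ w ∈ D.LD, Commute (evL ev w) (evL ev D.y)
  en : ∀ x, Commute x t → Commute x (evL ev D.y) → ∃ w ∈ D.LD, evL ev w = x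
  card : Nat.card (centralizer {t} ⊓ centralizer {evL ev D.y} : Subgroup G) = 256
  pair : ∀ a b, Commute a t → Commute b t → a * a = 1 → b * b = 1 → Commute a b →
    ∃ g, Commute g t ∧ ∀ x, x = a ∨ x = b ∨ x = a * b →
      ∃ w ∈ D.LD, g⁻¹ * x * g = evL ev w ∨ g⁻¹ * x * g = evL ev (w ++ D.s)

theorem Sit.enum [Finite G] (h : Sit t K S r ev img) (hc : D.chk1 img = true) : Enum t K ev D := by
  classical
  unfold KD.chk1 at hc
  simp only [Bool.and_eq_true, h.orc.ne_iff, h.orc.eqB_iff, Nat.blt_eq, Nat.beq_eq, List.all_eq_true,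
    evL_append, evL_cons, evL_nil, mul_one, ← h.t2, ← h.inK] at hc
  obtain ⟨⟨⟨⟨⟨⟨⟨⟨⟨a1, a2⟩, a3⟩, a4⟩, a5⟩, a6⟩, a7⟩, a8⟩, a9⟩, a10⟩ := hc
  set y := evL ev D.y with hy
  set s := evL ev D.s with hs
  let B : Subgroup G := centralizer {t} ⊓ centralizer {y}
  have mB : ∀ x, x ∈ B ↔ Commute x t ∧ Commute x y := fun x => by
    simp only [B, mem_inf, mem_centralizer_singleton_iff]; rfl
  have ub : Nat.card B ≤ 256 := by
    have n1 := List.nodup_iff_injective_get.mp (h.nodup a7)
    let f : Fin D.LC.length × B → centralizer ({t} : Set G) := fun x =>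
      ⟨x.2.1 * evL ev (D.LC.get x.1), mul_mem x.2.2.1 (h.orc.memW _)⟩
    have hf : Function.Injective f := by
      rintro ⟨i, d⟩ ⟨j, d'⟩ e
      have e1 : d.1 * evL ev (D.LC.get i) = d'.1 * evL ev (D.LC.get j) := congrArg Subtype.val e
      have k : ∀ (d : B) (w : G), (d.1 * w)⁻¹ * y * (d.1 * w) = w⁻¹ * y * w := fun d w => by
        rw [mul_inv_rev, mul_assoc, mul_assoc, ← mul_assoc y, ← ((mB _).mp d.2).2.eq]; group
      have e2 : i = j := by
        have := @n1 ⟨i, by simp⟩ ⟨j, by simp⟩ (by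
          simp only [List.get_eq_getElem, List.getElem_map]
          rw [h.cjW (a6 _ (List.getElem_mem _)), h.cjW (a6 _ (List.getElem_mem _)), ← hy]
          simp only [List.get_eq_getElem] at e1
          rw [← k d, e1, k d'])
        exact Fin.ext (Fin.mk.inj this)
      subst e2
      rw [Subtype.ext (mul_right_cancel e1 : d.1 = d'.1)]
    have := Nat.card_le_card_of_injective f hf
    rw [Nat.card_prod, Nat.card_fin, a5, h.hyp.card] at this
    omega
  have hs' : (((D.LD.map (evL ev)).toFinset : Set G)) = B ∧ Nat.card B = 256 := by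
    have e1 : (((D.LD.map (evL ev)).toFinset : Set G)).ncard = 256 := by
      rw [Set.ncard_coe_finset, List.toFinset_card_of_nodup (h.nodup (f := fun w => w) a10), List.length_map, a8]
    have e2 : (((D.LD.map (evL ev)).toFinset : Set G)) = B := by
      refine Set.eq_of_subset_of_ncard_le (fun x hx => ?_) ?_ (Set.toFinite _)
      · obtain ⟨w, hw, rfl⟩ := List.mem_map.mp (List.mem_toFinset.mp (Finset.mem_coe.mp hx))
        exact (mB _).mpr ⟨mem_centralizer_singleton_iff.mp (h.orc.memW w), a9 w hw⟩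
      · rw [e1, ← Nat.card_coe_set_eq]; exact ub
    exact ⟨e2, by rw [← e1, e2, ← Nat.card_coe_set_eq]; rfl⟩
  have en : ∀ x, Commute x t → Commute x y → ∃ w ∈ D.LD, evL ev w = x := fun x h1 h2 => by
    have : x ∈ (((D.LD.map (evL ev)).toFinset : Set G)) := hs'.1 ▸ (mB x).mpr ⟨h1, h2⟩
    exact List.mem_map.mp (List.mem_toFinset.mp (Finset.mem_coe.mp this))
  refine ⟨a1, a2, a3, a4, a9, en, hs'.2, fun a b ha hb a2' b2 c => ?_⟩
  obtain ⟨t2, t1⟩ := h.tt
  have st : Commute s t := mem_centralizer_singleton_iff.mp (h.orc.memW _)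
  have sy : s⁻¹ * y * s = y * t := by rw [mul_assoc, a4]; group
  have kt : ∀ x, Commute x t → x⁻¹ * (y * t) * x = x⁻¹ * y * x * t := fun x hx => by
    rw [mul_assoc, mul_assoc, ← hx.eq]; group
  let T : Subgroup G :=
    { carrier := {x | Commute x t ∧ (x⁻¹ * y * x = y ∨ x⁻¹ * y * x = y * t)}
      one_mem' := by simp
      mul_mem' := by
        rintro x z ⟨x1, x2⟩ ⟨z1, z2⟩
        refine ⟨x1.mul_left z1, ?_⟩
        have : (x * z)⁻¹ * y * (x * z) = z⁻¹ * (x⁻¹ * y * x) * z := by group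
        rw [this]
        rcases x2 with e | e <;> rw [e]
        · exact z2
        · rw [kt z z1]
          rcases z2 with e' | e' <;> rw [e']
          · exact Or.inr rfl
          · left; rw [mul_assoc, t2, mul_one]
      inv_mem' := by
        rintro x ⟨x1, x2⟩
        refine ⟨x1.inv_left, ?_⟩
        rcases x2 with e | e
        · left; conv_lhs => rw [← e]
          group
        · right
          have := kt x⁻¹ x1.inv_left
          rw [← e] at this
          rw [← mul_left_inj t, ← this, mul_assoc y, t2]; group }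
  have mT : ∀ x, x ∈ T ↔ Commute x t ∧ (x⁻¹ * y * x = y ∨ x⁻¹ * y * x = y * t) := fun _ => Iff.rfl
  have cv : ∀ x : G, x⁻¹ * y * x = y ↔ Commute x y := fun x => by
    rw [mul_assoc, inv_mul_eq_iff_eq_mul, eq_comm]; rfl
  have BT : B ≤ T := fun x hx => ⟨((mB x).mp hx).1, Or.inl ((cv x).mpr ((mB x).mp hx).2)⟩
  have TC : T ≤ centralizer {t} := fun x hx => mem_centralizer_singleton_iff.mpr hx.1
  have yt : y * t ≠ y := fun e => t1 (mul_eq_left.mp e)
  have i2 : B.relIndex T = 2 := by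
    refine index_eq_two_iff.mpr ⟨⟨s, st, Or.inr sy⟩, fun ⟨x, x1, x2⟩ => ?_⟩
    simp only [mem_subgroupOf, mB, ← cv, coe_mul]
    have : (x * s)⁻¹ * y * (x * s) = s⁻¹ * (x⁻¹ * y * x) * s := by group
    rw [this]
    rcases x2 with e | e <;> rw [e]
    · rw [sy]; exact Or.inr ⟨⟨x1, rfl⟩, fun e => yt e.2⟩
    · rw [kt s st, sy, mul_assoc, t2, mul_one]
      exact Or.inl ⟨⟨x1.mul_left st, rfl⟩, fun e => yt e.2⟩
  obtain ⟨g, hg, e⟩ := conj_into (K := centralizer {t}) (T := T) (pg2 a2' b2 c)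
    ((closure_le _).mpr (by
      rintro _ (rfl | rfl) <;> exact mem_centralizer_singleton_iff.mpr (by assumption))) (by
      have e1 := relIndex_mul_relIndex ⊥ B T bot_le BT
      have e2 := relIndex_mul_relIndex ⊥ T _ bot_le TC
      rw [relIndex_bot_left, relIndex_bot_left] at e1 e2
      rw [hs'.2, i2] at e1
      rw [← e1, h.hyp.card] at e2
      omega)
  refine ⟨g, mem_centralizer_singleton_iff.mp hg, fun x hx => ?_⟩
  obtain ⟨x1, x2⟩ := e x (by
    have m1 : a ∈ closure {a, b} := Subgroup.subset_closure (by simp)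
    have m2 : b ∈ closure {a, b} := Subgroup.subset_closure (by simp)
    rcases hx with rfl | rfl | rfl
    exacts [m1, m2, mul_mem m1 m2])
  rcases x2 with e | e
  · obtain ⟨w, hw, e1⟩ := en _ x1 ((cv _).mp e)
    exact ⟨w, hw, Or.inl e1.symm⟩
  · obtain ⟨w, hw, e1⟩ := en (g⁻¹ * x * g * s⁻¹) (x1.mul_left st.inv_left) ((cv _).mp (by
      rw [mul_inv_rev, inv_inv, mul_assoc, mul_assoc, ← mul_assoc y, ← mul_assoc _ (y * _),
        ← mul_assoc _ y, e, ← sy]
      group))
    exact ⟨w, hw, Or.inr (by rw [evL_append, e1, ← hs]; group)⟩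

end Cfsg.ON
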