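import Cfsg.Agent.ON.Kill

/-! Fusion of the involution and the local test. -/

set_option autoImplicit false
set_option maxRecDepth 100000

namespace Cfsg.ON

open Cfsg.H6 Subgroup

variable {G : Type*} [Group G]
variable {t : G} {K S : Subgroup G} {r ev : ℕ → G} {img : ℕ → ℕ → ℕ} {D : KD}

theorem Sit.cT (h : Sit t K S r ev img) (w : List ℕ) : Commute (evL ev w) t :=
  mem_centralizer_singleton_iff.mp (h.orc.memW w)

theorem Sit.cjK (h : Sit t K S r ev img) {g x : G} (hg : Commute g t) :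
    g⁻¹ * x * g ∈ K ↔ x ∈ K := by
  have m := mem_centralizer_singleton_iff.mpr hg.eq
  refine ⟨fun e => ?_, fun e => by simpa using h.hyp.nrm _ (inv_mem m) _ e⟩
  simpa [mul_assoc] using h.hyp.nrm _ m _ e

theorem cj_t {g t : G} (hg : Commute g t) : g⁻¹ * t * g = t := by
  rw [mul_assoc, ← hg.eq]; simp

theorem cj_inj {g x z : G} (e : g⁻¹ * x * g = g⁻¹ * z * g) : x = z := by simpa using e

/-- What the second check gives. -/
structure Cls (t : G) (K : Subgroup G) (ev : ℕ → G) (img : ℕ → ℕ → ℕ) (D : KD) : Prop where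
  ent : ∀ e ∈ D.E, key img 36 e.2.2.2 = e.1 ∧ (∃ c, Commute c t ∧
    evL ev e.2.2.2 = c⁻¹ * evL ev (D.R.getD e.2.1 []) * c) ∧
    (e.2.1 = 0 ∨ evL ev (D.R.getD e.2.1 []) ∉ K)
  r0 : evL ev (D.R.getD 0 []) = evL ev D.y
  pair : ∀ a b, Commute a t → Commute b t → a * a = 1 → b * b = 1 → Commute a b →
    ∃ g, Commute g t ∧ ∀ x, x = a ∨ x = b ∨ x = a * b → x ≠ 1 → x ≠ t →
      ∃ e ∈ D.E, g⁻¹ * x * g = evL ev e.2.2.2

theorem Sit.cls (h : Sit t K S r ev img) (E : Enum t K ev D) (hc : D.chk2 img = true) :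
    Cls t K ev img D := by
  unfold KD.chk2 at hc
  simp only [Bool.and_eq_true, h.orc.eqB_iff, Nat.ble_eq, Nat.beq_eq, List.all_eq_true,
    Bool.or_eq_true] at hc
  obtain ⟨⟨a1, a2⟩, a3⟩ := hc
  have ent : ∀ e ∈ D.E, key img 36 e.2.2.2 = e.1 ∧ (∃ c, Commute c t ∧
      evL ev e.2.2.2 = c⁻¹ * evL ev (D.R.getD e.2.1 []) * c) ∧
      (e.2.1 = 0 ∨ evL ev (D.R.getD e.2.1 []) ∉ K) := fun e he => by
    obtain ⟨⟨⟨b1, b2⟩, b3⟩, b4⟩ := a1 e he
    refine ⟨b3, ⟨_, h.cT e.2.2.1, ?_⟩, b4.imp id fun b => by rw [h.inK]; omega⟩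
    rw [← h.cjW b1, ← h.orc.key_iff, b2, b3]
  have k : ∀ w, D.clsB img w = true → evL ev w * evL ev w = 1 → evL ev w ≠ 1 → evL ev w ≠ t →
      ∃ e ∈ D.E, evL ev w = evL ev e.2.2.2 := fun w hw b1 b2 b3 => by
    unfold KD.clsB at hw
    simp only [Bool.or_eq_true, h.orc.ne_iff, h.orc.eqB_iff, frcB_eq, List.any_eq_true, Nat.beq_eq,
      evL_append, evL_cons, evL_nil, mul_one, ← h.t2] at hw
    rcases hw with ((hw | hw) | hw) | ⟨e, he, hw⟩
    · exact absurd b1 hw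
    · exact absurd hw b2
    · exact absurd hw b3
    · exact ⟨e, he, h.orc.key_iff.mp (hw.symm.trans (ent e he).1.symm)⟩
  refine ⟨ent, a2, fun a b c1 c2 c3 c4 c5 => ?_⟩
  obtain ⟨g, hg, e⟩ := E.pair a b c1 c2 c3 c4 c5
  refine ⟨g, hg, fun x hx n1 n2 => ?_⟩
  have x2 : g⁻¹ * x * g * (g⁻¹ * x * g) = 1 := by
    have : x * x = 1 := by
      rcases hx with rfl | rfl | rfl
      exacts [c3, c4, by rw [mul_assoc, ← mul_assoc b, ← c5.eq, mul_assoc, c4, mul_one, c3]]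
    calc _ = g⁻¹ * (x * x) * g := by group
      _ = 1 := by rw [this]; simp
  have n3 : g⁻¹ * x * g ≠ 1 := fun e => n1 (cj_inj (g := g) (by simpa using e))
  have n4 : g⁻¹ * x * g ≠ t := fun e => n2 (cj_inj (e.trans (cj_t hg).symm))
  obtain ⟨w, hw, e1 | e1⟩ := e x hx <;> rw [e1] at x2 n3 n4 ⊢
  exacts [k _ (a3 w hw).1 x2 n3 n4, k _ (a3 w hw).2 x2 n3 n4]

theorem Cls.one (C : Cls t K ev img D) {x : G} (h1 : Commute x t) (h2 : x * x = 1) (n1 : x ≠ 1)
    (n2 : x ≠ t) : ∃ e ∈ D.E, ∃ c, Commute c t ∧ c⁻¹ * x * c = evL ev (D.R.getD e.2.1 []) := by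
  obtain ⟨g, hg, e⟩ := C.pair x 1 h1 (Commute.one_left _) h2 (one_mul _) (Commute.one_right _)
  obtain ⟨e, he, e1⟩ := e x (Or.inl rfl) n1 n2
  obtain ⟨-, ⟨c, hc, e2⟩, -⟩ := C.ent e he
  refine ⟨e, he, g * c⁻¹, hg.mul_left hc.inv_left, ?_⟩
  calc _ = c * (g⁻¹ * x * g) * c⁻¹ := by group
    _ = _ := by rw [e1, e2]; group

theorem Sit.inner (h : Sit t K S r ev img) (C : Cls t K ev img D) {x : G} (h1 : x ∈ K)
    (h2 : x * x = 1) (n1 : x ≠ 1) (n2 : x ≠ t) : ∃ c, Commute c t ∧ c⁻¹ * x * c = evL ev D.y := by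
  obtain ⟨e, he, c, hc, e1⟩ := C.one (mem_centralizer_singleton_iff.mp (h.hyp.le h1)) h2 n1 n2
  rcases (C.ent e he).2.2 with e2 | e2
  · exact ⟨c, hc, by rw [e1, e2, C.r0]⟩
  · exact absurd (e1 ▸ (h.cjK hc).mpr h1) e2

theorem isConj_cj (x g : G) : IsConj x (g⁻¹ * x * g) := isConj_iff.mpr ⟨g⁻¹, by simp⟩

theorem comm_cj {x z : G} (g : G) (h : Commute x z) : Commute (g⁻¹ * x * g) (g⁻¹ * z * g) := by
  simpa using h.map (MulAut.conj g⁻¹)

theorem Sit.fuse [Finite G] [IsSimpleGroup G] (h : Sit t K S r ev img) (E : Enum t K ev D)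
    (C : Cls t K ev img D) (hc : D.chk3 img = true) (h8 : ev 8 ∉ K) :
    ∃ g, g⁻¹ * evL ev D.y * g = t ∧ g⁻¹ * t * g = evL ev D.y := by
  obtain ⟨t2, t1⟩ := h.tt
  have inn : ∀ {x : G}, x ∈ K → x * x = 1 → x ≠ 1 → x ≠ t → IsConj x (evL ev D.y) :=
    fun a b c d => by
      obtain ⟨c, -, e⟩ := h.inner C a b c d
      exact e ▸ isConj_cj _ _
  have sq : ∀ g x : G, g⁻¹ * (x * x) * g = g⁻¹ * x * g * (g⁻¹ * x * g) := fun g x => by group
  have ut : Commute (ev 7) t := h.cen t h.hyp.tK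
  have A : IsConj t (evL ev D.y) := by
    obtain ⟨g, g1, g2⟩ := H5.exists_commute_conj_ne h.hyp.ord (fun hz => by
      rcases IsSimpleGroup.eq_bot_or_eq_top_of_normal (center G) inferInstance with e | e
      · rw [e, mem_bot] at hz; exact t1 hz
      · have := E.ys
        rw [mem_center_iff.mp (e ▸ mem_top (evL ev D.s)) (evL ev D.y), left_eq_mul] at this
        exact t1 this)
    obtain ⟨g, rfl⟩ : ∃ g' : G, g = g'⁻¹ := ⟨g⁻¹, by simp⟩
    rw [inv_inv] at g1 g2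
    have z2 : g⁻¹ * t * g * (g⁻¹ * t * g) = 1 := by rw [← sq, t2]; simp
    have z1 : g⁻¹ * t * g ≠ 1 := fun e => t1 (cj_inj (g := g) (by simpa using e))
    by_cases hz : g⁻¹ * t * g ∈ K
    · exact (isConj_cj t g).trans (inn hz z2 z1 g2)
    unfold KD.chk3 at hc
    simp only [Bool.or_eq_true, h.orc.ne_iff, h.orc.eqB_iff, frcB_eq, List.all_eq_true, Nat.beq_eq,
      evL_append, evL_cons, evL_nil, mul_one, Bool.and_eq_true, Bool.not_eq_true',
      ← Bool.not_eq_true, KD.o2, evL_rp, pow_two, ← h.t2] at hc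
    rcases hc with hc | hc
    · refine absurd ?_ hz
      have cu : ∀ x, Commute x t → Commute (ev 7) x := fun x hx => by
        have m := mem_centralizer_singleton_iff.mpr hx.eq
        by_cases h1 : x ∈ K
        · exact h.cen x h1
        · have := h.cen _ ((h.hyp.two _ m _ (h.orc.mem 8)).mpr (iff_of_false h1 h8))
          simpa using this.mul_right (show Commute (ev 7) (ev 8) from hc).inv_right
      have c1 := comm_cj g (cu _ (by simpa [mul_assoc] using comm_cj g⁻¹ g1))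
      rw [h.t2, sq]
      exact h.sqK (by simpa [mul_assoc] using c1)
    obtain ⟨e, he, c, c1, e1⟩ := C.one g1.symm z2 z1 g2
    have l0 : e.2.1 ≠ 0 := fun e0 => hz ((h.cjK c1).mp (by rw [e1, e0, C.r0]; exact E.yK))
    obtain ⟨⟨⟨⟨⟨q1, q2⟩, q3⟩, q4⟩, q5⟩, -⟩ := (hc e he).resolve_left l0
    have aK := (C.ent e he).2.2.resolve_left l0
    have aT := h.cT (D.R.getD e.2.1 [])
    have q6 := h.cT (D.Q.getD e.2.1 ([], [])).1
    have q7 := h.cT (D.Q.getD e.2.1 ([], [])).2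
    generalize evL ev (D.R.getD e.2.1 []) = a at e1 q1 q2 aK aT
    generalize evL ev (D.Q.getD e.2.1 ([], [])).1 = x1 at q1 q3 q4 q5 q6
    generalize evL ev (D.Q.getD e.2.1 ([], [])).2 = x2 at q2 q3 q4 q5 q7
    obtain ⟨f, e2⟩ : ∃ f : G, f⁻¹ * a * f = t := ⟨(g * c)⁻¹, by rw [← e1]; group⟩
    have y1 : Commute (f⁻¹ * t * f) t := by have := comm_cj f aT.symm; rwa [e2] at this
    have y2 : f⁻¹ * t * f * (f⁻¹ * t * f) = 1 := by rw [← sq, t2]; simp
    have y3 : f⁻¹ * t * f ≠ 1 := fun e => t1 (cj_inj (g := f) (by simpa using e))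
    have y4 : f⁻¹ * t * f ≠ t := fun e => aK (cj_inj (e.trans e2.symm) ▸ h.hyp.tK)
    by_cases hy : f⁻¹ * t * f ∈ K
    · exact (isConj_cj t f).trans (inn hy y2 y3 y4)
    have sK : x1 * x1 * (x2 * x2) ∈ K := mul_mem (h.sqK q6) (h.sqK q7)
    have s1 : f⁻¹ * (x1 * x1 * (x2 * x2)) * f ∈ K := by
      have d1 := comm_cj f (show Commute x1 a from q1)
      have d2 := comm_cj f (show Commute x2 a from q2)
      rw [e2] at d1 d2
      convert mul_mem (h.sqK d1) (h.sqK d2) using 1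
      group
    generalize x1 * x1 * (x2 * x2) = s at q3 q4 q5 sK s1
    have st : Commute s t := mem_centralizer_singleton_iff.mp (h.hyp.le sK)
    have s2 : f⁻¹ * s * f * (f⁻¹ * s * f) = 1 := by rw [← sq, q3]; simp
    have s3 : f⁻¹ * s * f ≠ 1 := fun e => q4 (cj_inj (g := f) (by simpa using e))
    have s4 : f⁻¹ * s * f ≠ t := fun e => aK (cj_inj (e.trans e2.symm) ▸ sK)
    have pK : f⁻¹ * t * f * (f⁻¹ * s * f) ∉ K := fun e => hy ((mul_mem_cancel_right s1).mp e)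
    obtain ⟨k, k1, k2⟩ := C.pair _ _ y1 (mem_centralizer_singleton_iff.mp (h.hyp.le s1)) y2 s2
      (comm_cj f st.symm)
    obtain ⟨e3, m3, f3⟩ := k2 _ (Or.inl rfl) y3 y4
    obtain ⟨e4, m4, f4⟩ := k2 _ (Or.inr (Or.inl rfl)) s3 s4
    obtain ⟨e5, m5, f5⟩ := k2 _ (Or.inr (Or.inr rfl)) (fun e => pK (e ▸ K.one_mem))
      (fun e => pK (by rw [e]; exact h.hyp.tK))
    obtain ⟨-, ⟨c3, d3, g3⟩, -⟩ := C.ent e3 m3
    obtain ⟨-, ⟨c4, d4, g4⟩, j4⟩ := C.ent e4 m4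
    obtain ⟨i5, ⟨c5, d5, g5⟩, -⟩ := C.ent e5 m5
    have l3 : e3.2.1 ≠ 0 := fun e0 => hy ((h.cjK k1).mp (by
      rw [f3, g3, e0, C.r0]; exact (h.cjK d3).mpr E.yK))
    have l4 : e4.2.1 = 0 := j4.resolve_right (not_not.mpr ((h.cjK d4).mp (by
      rw [← g4, ← f4]; exact (h.cjK k1).mpr s1)))
    have f6 : evL ev e5.2.2.2 = evL ev (e3.2.2.2 ++ e4.2.2.2) := by
      rw [evL_append, ← f3, ← f4, ← f5]; group
    have l5 : e5.2.1 = e3.2.1 := by
      rcases ((hc e3 m3).resolve_left l3).2 e4 m4 with (b | b) | b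
      · exact absurd l4 b
      · refine absurd ?_ b
        rw [← f3, ← f4]
        exact (comm_cj k (comm_cj f st.symm)).eq
      · exact (b e5 m5).resolve_left (not_not.mpr (i5.symm.trans (h.orc.key_iff.mpr f6)))
    have c6 : IsConj t (evL ev (D.R.getD e3.2.1 [])) :=
      (((isConj_cj t f).trans (isConj_cj _ k)).trans (by rw [f3, g3]; exact (isConj_cj _ _).symm))
    have c7 : IsConj (t * s) (evL ev (D.R.getD e3.2.1 [])) := by
      refine ((isConj_cj _ f).trans (isConj_cj _ k)).trans ?_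
      have : f⁻¹ * (t * s) * f = f⁻¹ * t * f * (f⁻¹ * s * f) := by group
      rw [this, f5, g5, l5]
      exact (isConj_cj _ _).symm
    refine (c6.trans c7.symm).trans (inn (mul_mem h.hyp.tK sK) ?_ (fun e => q5 ?_) fun e => q4 ?_)
    · rw [mul_assoc, ← mul_assoc s, st.eq, mul_assoc, q3, mul_one, t2]
    · rw [← inv_eq_of_mul_eq_one_right e, inv_eq_of_mul_eq_one_right t2]
    · exact mul_eq_left.mp e
  obtain ⟨g, e⟩ := isConj_iff.mp A
  have e1 : g⁻¹ * evL ev D.y * g = t := by rw [← e]; group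
  have y1 : g⁻¹ * t * g ∈ K := by
    have := comm_cj g (h.cen _ E.yK)
    rw [e1] at this
    rw [h.t2, sq]
    exact h.sqK this
  obtain ⟨c, c1, e2⟩ := h.inner C y1 (by rw [← sq, t2]; simp)
    (fun e => t1 (cj_inj (g := g) (by simpa using e))) (fun e => E.yt (cj_inj (e1.trans e.symm)))
  refine ⟨g * c, ?_, by rw [← e2]; group⟩
  calc _ = c⁻¹ * (g⁻¹ * evL ev D.y * g) * c := by group
    _ = t := by rw [e1, cj_t c1]

theorem Sit.kill (h : Sit t K S r ev img) (E : Enum t K ev D) {g : G}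
    (e1 : g⁻¹ * evL ev D.y * g = t) (e2 : g⁻¹ * t * g = evL ev D.y) {z z' : List ℕ}
    (hz : (z = [] ∧ z' = []) ∨ (z = D.y ∧ z' = [7, 7])) (hc : D.kill img z z' = true) : False := by
  unfold KD.kill at hc
  simp only [Bool.or_eq_true, h.orc.ne_iff, h.orc.eqB_iff, List.all_eq_true, List.any_eq_true,
    evL_append, evL_cons, evL_nil, mul_one, Bool.and_eq_true] at hc
  have ut : Commute (ev 7) t := h.cen t h.hyp.tK
  have bk : ∀ x, Commute x t → Commute x (evL ev D.y) →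
      Commute (g * x * g⁻¹) t ∧ Commute (g * x * g⁻¹) (evL ev D.y) := fun x c1 c2 => by
    have d1 := comm_cj g⁻¹ c1
    have d2 := comm_cj g⁻¹ c2
    rw [← e1] at d1
    rw [← e2] at d2
    exact ⟨by simpa [mul_assoc] using d2, by simpa [mul_assoc] using d1⟩
  obtain ⟨v, hv, e3⟩ := E.en (g⁻¹ * ev 7 * g) (e1 ▸ comm_cj g (h.cen _ E.yK)) (e2 ▸ comm_cj g ut)
  rcases hc v hv with (b | ⟨d, hd, b1, b2⟩) | ⟨⟨w, hw, b1, b2⟩, b3⟩
  · refine b ?_
    rw [e3, ← e2, h.t2]; group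
  · rcases h.nu _ (mem_centralizer_singleton_iff.mpr (bk _ (h.cT d) (E.cm d hd)).1.eq) with e | e
    · refine b1 ?_
      rw [e3]
      conv_rhs => rw [← e]
      group
    · refine b2 ?_
      rw [e3]
      calc _ = evL ev d * g⁻¹ * ((g * evL ev d * g⁻¹)⁻¹ * ev 7 * (g * evL ev d * g⁻¹)) * ev 7 * g := by
            group
        _ = _ := by rw [e]; group
  · obtain ⟨c1, c2⟩ := bk _ (h.cT w) (E.cm w hw)
    obtain ⟨w1, h1, e4⟩ := E.en _ c1 c2
    rcases b3 w1 h1 with b | b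
    · refine b ?_
      have : evL ev w1 * evL ev w1 = g * evL ev z' * g⁻¹ := by rw [e4, ← b1]; group
      rw [this]
      rcases hz with ⟨rfl, rfl⟩ | ⟨rfl, rfl⟩
      · simp [evL]
      · rw [evL_cons, evL_singleton, ← h.t2, ← e1]; group
    · refine b2 ?_
      have := comm_cj g (show Commute (evL ev w1) (ev 7) from b)
      rw [e4, ← e3] at this
      simpa [mul_assoc] using this.eq

end Cfsg.ON
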