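import Cfsg.Agent.ON.Cos
import Cfsg.Agent.H3.SL2
import Cfsg.Prelude.Def_Classical

/-! Generators of the projective special linear group of degree three over four elements. -/

set_option autoImplicit false
set_option maxRecDepth 100000

namespace Cfsg.ON

open Cfsg.H6 Matrix

/-- Relations among three generators. -/
structure Pre {L : Type*} [Group L] (x w y : L) : Prop where
  f : F21 x w
  y3 : y ^ 3 = 1
  c : Commute w y
  r1 : ∀ j < 3, (x * w ^ j * y) ^ 5 = 1
  r2 : ∀ j < 3, (x * w ^ j * y⁻¹) ^ 5 = 1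
  gen : Subgroup.closure {x, w, y} = ⊤

theorem Pre.map {L L' : Type*} [Group L] [Group L'] {x w y : L} (h : Pre x w y) (e : L →* L')
    (he : Function.Surjective e) : Pre (e x) (e w) (e y) := by
  refine ⟨⟨by rw [← map_pow, h.f.x7, map_one], by rw [← map_pow, h.f.w3, map_one], by
    rw [← map_pow, ← h.f.cj]; simp⟩, by rw [← map_pow, h.y3, map_one], h.c.map e, fun j hj => ?_,
    fun j hj => ?_, ?_⟩
  · simpa using congrArg e (h.r1 j hj)
  · simpa using congrArg e (h.r2 j hj)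
  · have := congrArg (Subgroup.map e) h.gen
    rw [MonoidHom.map_closure, Subgroup.map_top_of_surjective _ he] at this
    simpa [Set.image_insert_eq] using this

namespace PS

abbrev SL34 : Type := Matrix.SpecialLinearGroup (Fin 3) F4

theorem card_SL : Nat.card SL34 = 3 * 20160 := by
  have h := H3.card_SL_mul (n := Fin 3) (F := F4)
  rw [card_GL_field, Nat.card_units, Nat.card_eq_fintype_card (α := F4), F4.card,
    Fin.prod_univ_three] at h
  norm_num at h
  show Nat.card (Matrix.SpecialLinearGroup (Fin 3) F4) = _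
  rw [Nat.card_eq_fintype_card]
  omega

def rows : List (List ℕ) := [[], [57, 30, 58, 31, 54, 27], [10, 15, 40, 60, 25, 46],
  [57, 30, 24, 44, 59, 29], [51, 17, 23, 41, 45, 54], [57, 30, 41, 62, 58, 31],
  [34, 51, 24, 44, 5, 10], [2, 3, 8, 12, 32, 48]]

noncomputable def rw (x : ℕ) : ℕ → ℕ := nthN (nthW rows x)

def pos (i : Fin 3) : ℕ := i.1

noncomputable def imgM (x p : ℕ) : ℕ := xv (rw x) p (2 * 3)

theorem hact : MAct (fun x => mat4 pos (rw x)) (dec4 pos) imgM 8 :=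
  mact4' (by decide +kernel) (by decide +kernel) (by decide +kernel)

theorem hbas : ∀ i, dec4 pos (4 ^ pos i) = Pi.single i 1 := by decide +kernel

theorem hA : ∀ x < 8, 1 ≤ x → (mat4 pos (rw x)).det = 1 := by
  simp only [det_fin_three]
  decide +kernel

theorem slToMat_inj : Function.Injective (Cfsg.slToMat 3 F4) :=
  fun (a b : SL34) (h : a.1 = b.1) => Subtype.ext h

def mkSL (A : Matrix (Fin 3) (Fin 3) F4) (h : A.det = 1) : SL34 := ⟨A, h⟩

noncomputable def evM (x : ℕ) : SL34 := if h : 1 ≤ x ∧ x < 8 then mkSL _ (hA x h.2 h.1) else 1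

theorem hμ : ∀ x, 1 ≤ x → x < 8 → Cfsg.slToMat 3 F4 (evM x) = mat4 pos (rw x) := by
  intro x h1 h2
  unfold evM
  rw [dif_pos ⟨h1, h2⟩]
  rfl

theorem ora : Oracle evM imgM 8 [1, 4, 16] :=
  hact.oracle slToMat_inj hμ hbas (by decide +kernel)

theorem z_central : evM 7 ∈ Subgroup.center SL34 := by
  rw [Matrix.SpecialLinearGroup.mem_center_iff]
  refine ⟨F4.mk 2, by decide +kernel, ?_⟩
  show _ = Cfsg.slToMat 3 F4 (evM 7)
  rw [hμ 7 (by norm_num) (by norm_num)]
  decide +kernel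

theorem card_PSL : Nat.card (ProjectiveSpecialLinearGroup (Fin 3) F4) = 20160 := by
  have : Fact (Nat.Prime 3) := Nat.fact_prime_three
  apply le_antisymm
  · refine card_quot_center_le z_central (k := 3) ?_ ?_ card_SL.le
    · rw [← evL_singleton evM 7]
      exact hact.ne hμ (w := []) (p := 1) (i := 0) (by decide +kernel) (by decide +kernel)
        (by decide +kernel)
    · rw [← evL_singleton evM 7, ← evL_rp]
      exact ora _ (by decide +kernel)
  · have h1 : Nat.card (Subgroup.center SL34) ≤ 3 := by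
      rw [Nat.card_congr (Matrix.SpecialLinearGroup.center_equiv_rootsOfUnity' (0 : Fin 3)).toEquiv]
      exact card_rootsOfUnity _ _
    have h4 := Subgroup.card_eq_card_quotient_mul_card_subgroup (Subgroup.center SL34)
    rw [card_SL] at h4
    by_contra hc
    have : Nat.card (SL34 ⧸ Subgroup.center SL34) ≤ 20159 := Nat.lt_succ_iff.mp (not_le.mp hc)
    nlinarith

def R : List (List ℕ) := [rp 7 [1], rp 3 [3], rp 3 [5], [3, 5, 4, 6], [3, 1, 4, 2, 2],
  rp 5 [1, 5], rp 5 [1, 3, 5], rp 5 [1, 3, 3, 5], rp 5 [1, 6], rp 5 [1, 3, 6], rp 5 [1, 3, 3, 6]]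

noncomputable def evQ (l : ℕ) : ProjectiveSpecialLinearGroup (Fin 3) F4 :=
  QuotientGroup.mk' (Subgroup.center SL34) (evM l)

theorem quot : Good evQ 0x05060304010200 ∧ Rels evQ R := by
  refine quot_of_chk ora (Z := [[], [7], [7, 7]]) (m := 7) (fun z hz => evL_mem_of_letters ?_)
    (dif_neg (by omega)) (fun l hl => ?_) (by decide +kernel)
  · have : ∀ x ∈ z, x = 7 := by
      revert z
      decide +kernel
    intro x hx
    rw [this x hx]
    exact z_central
  · by_cases h7 : l = 7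
    · rw [h7]; exact z_central
    · rw [evM, dif_neg (by omega)]
      exact Subgroup.one_mem _

def Ws : List (List ℕ) := [[], [1, 1, 1, 6, 2, 4, 5, 2, 6, 1, 4], [1, 1, 4, 5, 1, 6, 1, 5, 2], [1, 1, 6, 1, 3, 5, 1, 6, 3, 2], [1, 1, 6, 2, 3, 5, 1, 5, 1, 6], [1, 4, 6, 1, 6, 2, 2, 5, 1, 5], [1, 5, 1, 5, 1, 3, 6, 2, 3], [1, 5, 1, 5, 2, 2, 6, 1, 3, 6], [1, 6, 1, 1, 6, 1, 3, 5, 1], [1, 6, 2, 5, 2, 2, 6, 2, 4], [1, 6, 2, 5, 2, 6, 1, 3, 1], [2, 2, 5, 1, 6, 1, 3, 5], [2, 2, 5, 1, 6, 1, 5, 3], [2, 2, 5, 3, 1, 5, 1, 6, 2, 3], [2, 3, 5, 2, 6, 3, 2, 6], [2, 3, 6, 2, 3, 5, 2, 5], [2, 4, 6, 2, 4, 5, 2, 6], [2, 5, 2, 3, 6, 2, 3, 5], [2, 5, 2, 6, 3, 2, 6, 1, 3], [2, 6, 1, 4, 6, 2, 5, 1, 5, 4], [2, 6, 1, 5, 3, 2, 5, 1, 3, 6], [2, 6, 2, 3, 5, 2, 5, 1, 3], [4, 6, 2, 5, 2, 6, 1, 1], [5, 1, 3, 5, 1, 6, 3, 1, 5], [6, 4, 2, 5, 2, 6, 1, 1]]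

theorem mem_of {A : SL34}
    (h : ∃ w ∈ Ws, ∀ k l, dec4 pos (trF imgM w (4 ^ pos k)) l = A.1 k l) :
    ∃ w, inR 7 w = true ∧ evL evM w = A := by
  obtain ⟨w, hw, e⟩ := h
  have h7 : ∀ w ∈ Ws, inR 7 w = true ∧ inR 8 w = true := by decide +kernel
  refine ⟨w, (h7 w hw).1, slToMat_inj ?_⟩
  ext k l
  rw [hact.row hμ (h7 w hw).2 hbas, e]
  rfl

theorem all_words (A : SL34) : ∃ w, inR 7 w = true ∧ evL evM w = A := by
  refine Matrix.SpecialLinearGroup.diagonal_transvection_induction'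
    (fun A : SL34 => ∃ w, inR 7 w = true ∧ evL evM w = A) A (fun i j hij c hc => mem_of ?_)
    (fun i j hij a => mem_of ?_) ?_
  · simp only [Matrix.SpecialLinearGroup.diag2n_coe, diagonal_apply]
    revert i j c
    decide +kernel
  · simp only [Matrix.SpecialLinearGroup.transvection_coe, Matrix.add_apply, one_apply,
      single_apply]
    revert i j a
    decide +kernel
  · rintro _ _ ⟨u, hu, rfl⟩ ⟨v, hv, rfl⟩
    exact ⟨u ++ v, by unfold inR at *; rw [List.all_append, hu, hv]; rfl, evL_append _ _ _⟩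

theorem pre : Pre (evQ 1) (evQ 3) (evQ 5) := by
  obtain ⟨g, r⟩ := quot
  have i2 : evQ 2 = (evQ 1)⁻¹ := g.inv 1
  have i4 : evQ 4 = (evQ 3)⁻¹ := g.inv 3
  have i6 : evQ 6 = (evQ 5)⁻¹ := g.inv 5
  unfold Rels R at r
  simp only [List.forall_mem_cons, evL_rp, evL_cons, evL_nil, mul_one, i2, i4, i6] at r
  obtain ⟨r1, r2, r3, r4, r5, r6, r7, r8, r9, r10, r11, -⟩ := r
  refine ⟨⟨r1, r2, ?_⟩, r3, ?_, fun j hj => ?_, fun j hj => ?_, ?_⟩
  · rw [← mul_inv_eq_one, ← r5, sq]; group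
  · rw [Commute, SemiconjBy, ← mul_inv_eq_one, ← r4]; group
  · interval_cases j
    · simpa using r6
    · simpa [mul_assoc] using r7
    · simpa [mul_assoc, sq] using r8
  · interval_cases j
    · simpa using r9
    · simpa [mul_assoc] using r10
    · simpa [mul_assoc, sq] using r11
  · rw [eq_top_iff]
    rintro q -
    obtain ⟨A, rfl⟩ := QuotientGroup.mk'_surjective _ q
    obtain ⟨w, hw, rfl⟩ := all_words A
    rw [map_evL]
    refine evL_mem_of_letters fun x hx => ?_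
    obtain ⟨h1, h2⟩ := inR_spec hw x hx
    change evQ x ∈ _
    interval_cases x
    · exact Subgroup.subset_closure (by simp)
    · rw [i2]; exact inv_mem (Subgroup.subset_closure (by simp))
    · exact Subgroup.subset_closure (by simp)
    · rw [i4]; exact inv_mem (Subgroup.subset_closure (by simp))
    · exact Subgroup.subset_closure (by simp)
    · rw [i6]; exact inv_mem (Subgroup.subset_closure (by simp))

end PS

theorem psl_pre (F : Type) [Field F] [Fintype F] (hF : Fintype.card F = 4) :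
    Nat.card (ProjectiveSpecialLinearGroup (Fin 3) F) = 20160 ∧
      ∃ x w y : ProjectiveSpecialLinearGroup (Fin 3) F, Pre x w y := by
  have e := H3.pslCongr (n := Fin 3) (FiniteField.ringEquivOfCardEq (hF.trans F4.card.symm))
  exact ⟨(Nat.card_congr e.toEquiv).trans PS.card_PSL, _, _, _,
    PS.pre.map e.symm.toMonoidHom e.symm.surjective⟩

end Cfsg.ON
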