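import Cfsg.Agent.ON.Tail
import Cfsg.Agent.ON.PSL

/-! Generators of the perfect central extension, and normalisation of the tails. -/

set_option autoImplicit false

namespace Cfsg.ON

open Cfsg.H6 Subgroup
open scoped commutatorElement

variable {G : Type*} [Group G]

/-- Three generators whose fifth-power relators are central. -/
structure Tri (K : Subgroup G) (z X W Y : G) : Prop where
  f : F21 X W
  y3 : Y ^ 3 = 1
  c : Commute W Y
  r1 : ∀ j < 3, (X * W ^ j * Y) ^ 5 ∈ zpowers z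
  r2 : ∀ j < 3, (X * W ^ j * Y⁻¹) ^ 5 ∈ zpowers z
  gen : closure {X, W, Y} = K
  zK : z ∈ K
  cen : ∀ k ∈ K, Commute z k
  z4 : z ^ 4 = 1
  z2 : z ^ 2 ≠ 1
  card : Nat.card K = 80640

theorem zp4 {z a : G} (h4 : z ^ 4 = 1) (h : a ∈ zpowers z) : ∃ i < 4, a = z ^ i := by
  obtain ⟨k, rfl⟩ := mem_zpowers_iff.mp h
  refine ⟨(k % 4).toNat, by omega, ?_⟩
  rw [← zpow_natCast, Int.toNat_of_nonneg (by omega), ← zpow_eq_zpow_emod k (by exact_mod_cast h4)]

theorem tri_of [Finite G] {L : Type*} [Group L] (π : G →* L) (hπ : Function.Surjective π) {z : G}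
    (hk : ∀ m, π m = 1 → m ∈ zpowers z) (hz : ∀ m, Commute z m) (z4 : z ^ 4 = 1) (z2 : z ^ 2 ≠ 1)
    (hp : commutator G = ⊤) (hc : Nat.card G = 80640) {x w y : L} (h : Pre x w y) :
    ∃ X W Y, Tri ⊤ z X W Y := by
  have k4 : ∀ m, π m = 1 → m ^ 4 = 1 ∧ ∀ g, Commute m g := fun m e => by
    obtain ⟨i, _, rfl⟩ := zp4 z4 (hk m e)
    exact ⟨by rw [← pow_mul, mul_comm, pow_mul, z4, one_pow], fun g => (hz g).pow_left i⟩
  have l7 : ∀ a : L, a ^ 7 = 1 → ∃ A, π A = a ∧ A ^ 7 = 1 := fun a e => by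
    obtain ⟨m, rfl⟩ := hπ a
    refine ⟨m ^ 8, by rw [map_pow, pow_succ, e, one_mul], ?_⟩
    rw [← pow_mul, show 8 * 7 = 7 * 4 * 2 by rfl, pow_mul, pow_mul,
      (k4 _ (by rw [map_pow, e])).1, one_pow]
  have l3 : ∀ a : L, a ^ 3 = 1 → ∃ A, π A = a ∧ A ^ 3 = 1 := fun a e => by
    obtain ⟨m, rfl⟩ := hπ a
    refine ⟨m ^ 4, by rw [map_pow, pow_succ, e, one_mul], ?_⟩
    rw [← pow_mul, mul_comm, pow_mul, (k4 _ (by rw [map_pow, e])).1]
  have uq : ∀ a b : G, π a = π b → a ^ 21 = 1 → b ^ 21 = 1 → a = b := fun a b e e1 e2 => by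
    obtain ⟨a1, a2⟩ := k4 (b⁻¹ * a) (by rw [map_mul, map_inv, e, inv_mul_cancel])
    have : a = b * (b⁻¹ * a) := by group
    rw [this, (a2 b).symm.mul_pow, e2, one_mul, show 21 = 4 * 5 + 1 by rfl, pow_succ, pow_mul, a1,
      one_pow, one_mul] at e1
    rw [this, e1, mul_one]
  obtain ⟨X, rfl, x7⟩ := l7 x h.f.x7
  obtain ⟨W, rfl, w3⟩ := l3 w h.f.w3
  obtain ⟨Y, rfl, y3⟩ := l3 y h.y3
  have x21 : X ^ 21 = 1 := by rw [show 21 = 7 * 3 by rfl, pow_mul, x7, one_pow]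
  have y21 : Y ^ 21 = 1 := by rw [show 21 = 3 * 7 by rfl, pow_mul, y3, one_pow]
  refine ⟨X, W, Y, ⟨x7, w3, uq _ _ (by simpa using h.f.cj) (by rw [conj_pow, x21]; simp)
    (by rw [← pow_mul, mul_comm, pow_mul, x21, one_pow])⟩, y3, ?_,
    fun j hj => hk _ (by simpa using h.r1 j hj), fun j hj => hk _ (by simpa using h.r2 j hj), ?_,
    mem_top _, fun k _ => hz k, z4, z2, by rwa [card_top]⟩
  · rw [Commute, SemiconjBy, ← mul_inv_eq_iff_eq_mul]
    exact uq _ _ (by simp [h.c.eq]) (by rw [conj_pow, y21]; simp) y21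
  · have dec : ∀ m : G, ∃ n ∈ closure {X, W, Y}, ∃ ζ, (∀ g, Commute ζ g) ∧ m = n * ζ := fun m => by
      have : π m ∈ (closure {X, W, Y}).map π := by
        rw [MonoidHom.map_closure]
        simp only [Set.image_insert_eq, Set.image_singleton, h.gen, mem_top]
      obtain ⟨n, hn, e⟩ := this
      exact ⟨n, hn, n⁻¹ * m, (k4 _ (by rw [map_mul, map_inv, e, inv_mul_cancel])).2, by group⟩
    rw [eq_top_iff, ← hp, commutator_def, commutator_le]
    rintro a - b -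
    obtain ⟨n1, h1, ζ1, c1, rfl⟩ := dec a
    obtain ⟨n2, h2, ζ2, c2, rfl⟩ := dec b
    have : ⁅n1 * ζ1, n2 * ζ2⁆ = n1 * n2 * n1⁻¹ * n2⁻¹ := by
      rw [commutatorElement_def, mul_assoc n1, (c1 _).eq, mul_inv_rev, mul_inv_rev]
      calc _ = n1 * n2 * (ζ2 * n1⁻¹) * ζ2⁻¹ * n2⁻¹ := by group
        _ = _ := by rw [(c2 _).eq]; group
    rw [this]
    exact mul_mem (mul_mem (mul_mem h1 h2) (inv_mem h1)) (inv_mem h2)

theorem Tri.map {G' : Type*} [Group G'] (ι : G →* G') (hι : Function.Injective ι) {z X W Y : G}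
    (h : Tri ⊤ z X W Y) : Tri ι.range (ι z) (ι X) (ι W) (ι Y) := by
  have m : ∀ a, a ∈ zpowers z → ι a ∈ zpowers (ι z) := fun a ha => by
    rw [← MonoidHom.map_zpowers]; exact mem_map_of_mem _ ha
  refine ⟨⟨by rw [← map_pow, h.f.x7, map_one], by rw [← map_pow, h.f.w3, map_one], by
    rw [← map_pow, ← h.f.cj]; simp⟩, by rw [← map_pow, h.y3, map_one], h.c.map ι,
    fun j hj => by simpa using m _ (h.r1 j hj), fun j hj => by simpa using m _ (h.r2 j hj), ?_,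
    ⟨z, rfl⟩, ?_, by rw [← map_pow, h.z4, map_one], ?_, ?_⟩
  · have := congrArg (Subgroup.map ι) h.gen
    rw [MonoidHom.map_closure, ← MonoidHom.range_eq_map] at this
    simpa [Set.image_insert_eq] using this
  · rintro _ ⟨k, rfl⟩
    exact (h.cen k (mem_top _)).map ι
  · rw [← map_pow, ne_eq, map_eq_one_iff ι hι]
    exact h.z2
  · rw [← Nat.card_congr (MonoidHom.ofInjective hι).toEquiv, ← h.card, card_top]

variable {K : Subgroup G} {z X W Y : G}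

theorem Tri.shift (h : Tri K z X W Y) : Tri K z X W (Y * W) := by
  have w3 := h.f.w3
  have e1 : ∀ j, X * W ^ j * (Y * W) = X * W ^ ((j + 1) % 3) * Y := fun j => by
    rw [← pow_eq_pow_mod _ w3, ← h.c.eq, pow_succ]; group
  have e2 : ∀ j, X * W ^ j * (Y * W)⁻¹ = X * W ^ ((j + 2) % 3) * Y⁻¹ := fun j => by
    have : W⁻¹ = W ^ 2 := by rw [inv_eq_iff_mul_eq_one, ← pow_succ', w3]
    rw [← pow_eq_pow_mod _ w3, mul_inv_rev, this, pow_add]; group
  refine ⟨h.f, by rw [h.c.symm.mul_pow, h.y3, w3, one_mul], h.c.mul_right (Commute.refl _),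
    fun j _ => e1 j ▸ h.r1 _ (Nat.mod_lt _ (by norm_num)),
    fun j _ => e2 j ▸ h.r2 _ (Nat.mod_lt _ (by norm_num)), ?_, h.zK, h.cen, h.z4, h.z2, h.card⟩
  rw [← h.gen]
  apply le_antisymm <;> rw [closure_le] <;> rintro _ (rfl | rfl | rfl)
  · exact subset_closure (by simp)
  · exact subset_closure (by simp)
  · exact mul_mem (subset_closure (by simp)) (subset_closure (by simp))
  · exact subset_closure (by simp)
  · exact subset_closure (by simp)
  · rw [SetLike.mem_coe, ← mul_mem_cancel_right (subset_closure (k := {X, W, _ * W})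
      (show W ∈ _ by simp))]
    exact subset_closure (by simp)

/-- The letters. -/
def evH (X W Y u h : G) : ℕ → G := evM [1, X, X⁻¹, W, W⁻¹, Y, Y⁻¹, u, h]

theorem evH_cases {P : G → Prop} {u h : G} (h0 : P 1) (h1 : P X) (h2 : P X⁻¹) (h3 : P W) (h4 : P W⁻¹)
    (h5 : P Y) (h6 : P Y⁻¹) (h7 : P u) (h8 : P h) (x : ℕ) : P (evH X W Y u h x) := by
  by_cases hx : x < 9
  · interval_cases x <;> assumption
  · rw [evH, evM_ge _ _ (by simp; omega)]; exact h0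

theorem evH_ge {u h : G} {x : ℕ} (hx : 9 ≤ x) : evH X W Y u h x = 1 := evM_ge _ _ (by simpa using hx)

theorem Tri.mem (h : Tri K z X W Y) : X ∈ K ∧ W ∈ K ∧ Y ∈ K := by
  rw [← h.gen]
  exact ⟨subset_closure (by simp), subset_closure (by simp), subset_closure (by simp)⟩

theorem Tri.range (h : Tri K z X W Y) {u : G} (hu : u ∈ K) :
    K = closure (Set.range (evH X W Y u 1)) := by
  obtain ⟨a, b, c⟩ := h.mem
  apply le_antisymm
  · rw [← h.gen, closure_le]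
    rintro _ (rfl | rfl | rfl)
    exacts [subset_closure ⟨1, rfl⟩, subset_closure ⟨3, rfl⟩, subset_closure ⟨5, rfl⟩]
  · rw [closure_le]
    rintro _ ⟨x, rfl⟩
    exact evH_cases (P := fun g => g ∈ K) K.one_mem a (inv_mem a) b (inv_mem b) c (inv_mem c) hu
      K.one_mem x

theorem Tri.tl (h : Tri K z X W Y) {u : G} (u4 : u ^ 4 = 1) (hu : ∀ k ∈ K, Commute u k) (huK : u ∈ K)
    {k : ℕ → ℕ} (e0 : (X * Y) ^ 5 = u ^ k 0) (e1 : (X * Y⁻¹) ^ 5 = u ^ k 1)
    (e2 : (X * W * Y) ^ 5 = u ^ k 2) (e3 : (X * W ^ 2 * Y) ^ 5 = u ^ k 3) :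
    Tl (evH X W Y u 1) u k := by
  refine ⟨u4, fun x => hu _ (h.range huK ▸ subset_closure ⟨x, rfl⟩), ?_⟩
  have i4 : W⁻¹ = W ^ 2 := by rw [inv_eq_iff_mul_eq_one, ← pow_succ', h.f.w3]
  have x7 := h.f.x7
  have w3 := h.f.w3
  have y3 := h.y3
  rw [← i4] at e3
  simp only [pow_succ, pow_zero, one_mul, mul_assoc] at e0 e1 e2 e3 x7 w3 y3
  simp only [Rl, List.forall_mem_cons, evL, List.map, List.prod_cons, List.prod_nil, val, evH, evM,
    List.getD_cons_succ, List.getD_cons_zero, mul_one]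
  simp only [e0, e1, e2, e3, x7, w3, y3]
  refine ⟨by simp, by simp, by simp, ?_, ?_, by simp⟩
  · simp [← mul_assoc, h.c.eq]
  · simp only [← mul_assoc, h.f.cj, sq]; simp

theorem Tri.tails [Finite G] (h : Tri K z X W Y) : (X * Y⁻¹) ^ 5 = (X * Y) ^ 5 ∧
    (X * Y) ^ 5 * (X * W * Y) ^ 5 * (X * W ^ 2 * Y) ^ 5 = 1 := by
  obtain ⟨i0, -, e0⟩ := zp4 h.z4 (h.r1 0 (by norm_num))
  obtain ⟨i1, -, e1⟩ := zp4 h.z4 (h.r2 0 (by norm_num))
  obtain ⟨i2, -, e2⟩ := zp4 h.z4 (h.r1 1 (by norm_num))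
  obtain ⟨i3, -, e3⟩ := zp4 h.z4 (h.r1 2 (by norm_num))
  rw [pow_zero, mul_one] at e0 e1
  rw [pow_one] at e2
  have T := h.tl h.z4 h.cen h.zK (k := fun j => [i0, i1, i2, i3].getD j 0) e0 e1 e2 e3
  rw [e0, e1, e2, e3, ← pow_add, ← pow_add]
  exact ⟨T.k01, T.k023⟩

theorem Tri.not_even [Finite G] (h : Tri K z X W Y) {i j : ℕ} (e0 : (X * Y) ^ 5 = (z ^ 2) ^ i)
    (e2 : (X * W * Y) ^ 5 = (z ^ 2) ^ j) : False := by
  obtain ⟨t1, t2⟩ := h.tails
  have u2 : (z ^ 2) ^ 2 = 1 := by rw [← pow_mul, h.z4]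
  have e3 : (X * W ^ 2 * Y) ^ 5 = (z ^ 2) ^ (i + j) := by
    rw [e0, e2, ← pow_add] at t2
    rw [← inv_eq_of_mul_eq_one_right t2, inv_eq_iff_mul_eq_one, ← pow_add, ← two_mul, pow_mul, u2,
      one_pow]
  have T := h.tl (u := z ^ 2) (by rw [show 4 = 2 * 2 by rfl, pow_mul, u2, one_pow])
    (fun k hk => (h.cen k hk).pow_left 2) (pow_mem h.zK 2)
    (k := fun l => [i, i, j, i + j].getD l 0) e0 (t1.trans e0) e2 e3
  have cf := T.cf rfl (fun x hx => by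
    rcases hx with rfl | hx
    · rfl
    · by_cases h8 : x = 8
      · rw [h8]; rfl
      · exact evH_ge (by omega))
  have hc : Cover (closure {X, W}) K 1920 := by
    refine ⟨fun q => (z ^ 2) ^ (q % 2) * rep (evH X W Y (z ^ 2) 1) (q / 2), fun g hg => ?_⟩
    obtain ⟨p, hp, e⟩ := cf.cov repZ_zero (by norm_num) (h.range (pow_mem h.zK 2) ▸ hg)
    refine ⟨2 * (p / 4) + p % 2, by omega, ?_⟩
    have a1 : (2 * (p / 4) + p % 2) / 2 = p / 4 := by omega
    have a2 : (2 * (p / 4) + p % 2) % 2 = p % 4 % 2 := by omega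
    simp only [a1, a2, ← pow_eq_pow_mod _ u2]
    exact e
  have h1 := hc.finite_card.2
  have h2 := h.f.card_le
  rw [h.card] at h1
  omega

/-- The normalised tails. -/
structure Mdl (K : Subgroup G) (u X W Y : G) (p : ℕ) : Prop where
  tri : Tri K u X W Y
  e0 : (X * Y) ^ 5 = u ^ p
  e2 : (X * W * Y) ^ 5 = u

theorem Tri.good (h : Tri K z X W Y) {i j : ℕ} (e0 : (X * Y) ^ 5 = z ^ (2 * i))
    (e2 : (X * W * Y) ^ 5 = z ^ (2 * j + 1)) : ∃ u p, (p = 0 ∨ p = 2) ∧ Mdl K u X W Y p := by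
  have m : ∀ a b : ℕ, a % 4 = b % 4 → z ^ a = z ^ b := fun a b e => by
    rw [pow_eq_pow_mod a h.z4, pow_eq_pow_mod b h.z4, e]
  have u2 : (z ^ (2 * j + 1)) ^ 2 = z ^ 2 := by rw [← pow_mul]; exact m _ _ (by omega)
  have hz : z ∈ zpowers (z ^ (2 * j + 1)) := by
    rcases Nat.even_or_odd' j with ⟨l, rfl | rfl⟩
    · rw [m _ 1 (by omega), pow_one]; exact mem_zpowers _
    · have := pow_mem (mem_zpowers (z ^ (2 * (2 * l + 1) + 1))) 3
      rwa [← pow_mul, m (_ * 3) 1 (by omega), pow_one] at this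
  have le := zpowers_le.mpr hz
  refine ⟨z ^ (2 * j + 1), 2 * i % 4, by omega, ⟨h.f, h.y3, h.c, fun l hl => le (h.r1 l hl),
    fun l hl => le (h.r2 l hl), h.gen, pow_mem h.zK _, fun k hk => (h.cen k hk).pow_left _,
    by rw [← pow_mul, mul_comm, pow_mul, h.z4, one_pow], u2 ▸ h.z2, h.card⟩, ?_, e2⟩
  have : 2 * i % 4 = 2 * (i % 2) := by omega
  rw [e0, this, pow_mul _ 2 (i % 2), u2, ← pow_mul]
  exact m _ _ (by omega)

theorem Tri.norm [Finite G] (h : Tri K z X W Y) :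
    ∃ u Y' p, (p = 0 ∨ p = 2) ∧ Mdl K u X W Y' p := by
  obtain ⟨i, -, e0⟩ := zp4 h.z4 (h.r1 0 (by norm_num))
  obtain ⟨j, -, e2⟩ := zp4 h.z4 (h.r1 1 (by norm_num))
  rw [pow_zero, mul_one] at e0
  rw [pow_one] at e2
  have e3 : (X * W ^ 2 * Y) ^ 5 = z ^ (3 * (i + j)) := by
    have t2 := h.tails.2
    rw [e0, e2, ← pow_add] at t2
    rw [← inv_eq_of_mul_eq_one_right t2, inv_eq_iff_mul_eq_one, ← pow_add,
      show i + j + 3 * (i + j) = 4 * (i + j) by ring, pow_mul, h.z4, one_pow]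
  have s1 : X * (Y * W) = X * W * Y := by rw [← h.c.eq, mul_assoc]
  have s2 : X * W * (Y * W) = X * W ^ 2 * Y := by rw [← h.c.eq, sq]; group
  have s3 : X * (Y * W * W) = X * W ^ 2 * Y := by rw [mul_assoc Y, ← sq, ← (h.c.pow_left 2).eq, mul_assoc]
  have s4 : X * W * (Y * W * W) = X * Y := by
    rw [mul_assoc Y, ← sq, ← (h.c.pow_left 2).eq, mul_assoc X, ← mul_assoc W, ← pow_succ', h.f.w3,
      one_mul]
  rcases Nat.even_or_odd' i with ⟨i, rfl | rfl⟩ <;> rcases Nat.even_or_odd' j with ⟨j, rfl | rfl⟩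
  · exact (h.not_even (e0.trans (pow_mul _ _ _)) (e2.trans (pow_mul _ _ _))).elim
  · obtain ⟨u, p, a⟩ := h.good e0 e2
    exact ⟨u, _, p, a⟩
  · obtain ⟨u, p, a⟩ := h.shift.good (i := j) (j := 3 * i + 3 * j + 1) (s1 ▸ e2)
      (by rw [s2, e3]; congr 1; ring)
    exact ⟨u, _, p, a⟩
  · obtain ⟨u, p, a⟩ := h.shift.shift.good (i := 3 * i + 3 * j + 3) (j := i)
      (by rw [s3, e3]; congr 1; ring) (s4 ▸ e0)
    exact ⟨u, _, p, a⟩

def kp (p l : ℕ) : ℕ := [p, p, 1, 3 + 3 * p].getD l 0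

theorem Mdl.tl [Finite G] {u : G} {p : ℕ} (h : Mdl K u X W Y p) : Tl (evH X W Y u 1) u (kp p) := by
  obtain ⟨t1, t2⟩ := h.tri.tails
  refine h.tri.tl h.tri.z4 h.tri.cen h.tri.zK h.e0 (t1.trans h.e0) (h.e2.trans (pow_one _).symm) ?_
  rw [h.e0, h.e2, ← pow_succ] at t2
  rw [← inv_eq_of_mul_eq_one_right t2, inv_eq_iff_mul_eq_one, ← pow_add]
  show u ^ (p + 1 + (3 + 3 * p)) = 1
  rw [show p + 1 + (3 + 3 * p) = 4 * (p + 1) by ring, pow_mul, h.tri.z4, one_pow]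

theorem Mdl.cf [Finite G] {u : G} {p : ℕ} (h : Mdl K u X W Y p) :
    CF (closure {X, W}) (repZ (evH X W Y u 1) u) (evH X W Y u 1) (imgF (kp p)) 3840 :=
  h.tl.cf rfl (fun x hx => by
    rcases hx with rfl | hx
    · rfl
    · by_cases h8 : x = 8
      · rw [h8]; rfl
      · exact evH_ge (by omega))

/-- The position of the subgroup in the centraliser of the involution. -/
structure Hyp (t : G) (K : Subgroup G) : Prop where
  ord : orderOf t = 2
  le : K ≤ centralizer {t}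
  tK : t ∈ K
  nrm : ∀ g ∈ centralizer {t}, ∀ k ∈ K, g * k * g⁻¹ ∈ K
  two : ∀ g ∈ centralizer {t}, ∀ g' ∈ centralizer {t}, (g * g' ∈ K ↔ (g ∈ K ↔ g' ∈ K))
  out : ∀ g ∈ centralizer {t}, (∀ k ∈ K, Commute g k) → g ∈ K
  card : Nat.card (centralizer ({t} : Set G)) = 161280

theorem start [Finite G] (t : G) (ht : orderOf t = 2)
    (M : Subgroup (Subgroup.centralizer ({t} : Set G))) [M.Normal] (hM : M.index = 2)
    (hout : Subgroup.centralizer (M : Set (Subgroup.centralizer ({t} : Set G))) ≤ M)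
    (hZc : IsCyclic (Subgroup.center M)) (hZ4 : Nat.card (Subgroup.center M) = 4)
    (hperf : commutator M = ⊤) (F : Type) [Field F] [Fintype F] (hF : Fintype.card F = 4)
    (e : M ⧸ Subgroup.center M ≃* Matrix.ProjectiveSpecialLinearGroup (Fin 3) F) :
    ∃ (K : Subgroup G) (u X W Y : G) (p : ℕ), (p = 0 ∨ p = 2) ∧ Mdl K u X W Y p ∧ Hyp t K := by
  obtain ⟨hc, x, w, y, hp⟩ := psl_pre F hF
  have cM : Nat.card M = 80640 := by
    rw [card_eq_card_quotient_mul_card_subgroup (center M), hZ4, Nat.card_congr e.toEquiv, hc]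
  obtain ⟨z, hz⟩ := IsCyclic.exists_generator (α := center M)
  have oz : orderOf (z : M) = 4 := by
    rw [Subgroup.orderOf_coe, orderOf_eq_card_of_forall_mem_zpowers hz, hZ4]
  obtain ⟨X, W, Y, T⟩ := tri_of (e.toMonoidHom.comp (QuotientGroup.mk' _))
    (e.surjective.comp (QuotientGroup.mk'_surjective _)) (z := (z : M)) (fun m hm => by
      have h1 : m ∈ center M := by simpa using hm
      obtain ⟨k, hk⟩ := mem_zpowers_iff.mp (hz ⟨m, h1⟩)
      exact mem_zpowers_iff.mpr ⟨k, congrArg Subtype.val hk⟩)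
    (fun m => (mem_center_iff.mp z.2 m).symm) (oz ▸ pow_orderOf_eq_one _)
    (pow_ne_one_of_lt_orderOf (by norm_num) (by rw [oz]; norm_num)) hperf cM hp
  let ι : M →* G := (centralizer {t}).subtype.comp M.subtype
  have hι : Function.Injective ι := (subtype_injective _).comp (subtype_injective _)
  obtain ⟨u, Y', p, h1, h2⟩ := (T.map ι hι).norm
  have mem : ∀ g : centralizer ({t} : Set G), g.1 ∈ ι.range ↔ g ∈ M := fun g =>
    ⟨fun ⟨m, hm⟩ => (Subtype.ext hm : m.1 = g) ▸ m.2, fun h => ⟨⟨g, h⟩, rfl⟩⟩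
  have out : ∀ g ∈ centralizer {t}, (∀ k ∈ ι.range, Commute g k) → g ∈ ι.range := fun g hg h =>
    (mem ⟨g, hg⟩).mpr (hout fun m hm => Subtype.ext (h _ ((mem m).mpr hm)).symm.eq)
  have le : ι.range ≤ centralizer {t} := by rintro _ ⟨m, rfl⟩; exact m.1.2
  refine ⟨_, u, _, _, Y', p, h1, h2, ht, le, out t (mem_centralizer_singleton_iff.mpr rfl)
    fun k hk => (show Commute k t from mem_centralizer_singleton_iff.mp (le hk)).symm, ?_, ?_, out, ?_⟩
  · intro g hg k hk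
    exact (mem (⟨g, hg⟩ * ⟨k, le hk⟩ * ⟨g, hg⟩⁻¹)).mpr
      (Normal.conj_mem inferInstance _ ((mem ⟨k, le hk⟩).mp hk) _)
  · intro g hg g' hg'
    rw [mem ⟨g, hg⟩, mem ⟨g', hg'⟩, ← mul_mem_iff_of_index_two hM]
    exact mem (⟨g, hg⟩ * ⟨g', hg'⟩)
  · rw [← M.index_mul_card, hM, cM]

end Cfsg.ON
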