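import Cfsg.Agent.ON.TailD

/-! The table of 960 cosets with central tails: checker and soundness. -/

set_option autoImplicit false
set_option maxRecDepth 100000

namespace Cfsg.ON

open Cfsg.H6

noncomputable def pick (a1 a2 a3 a4 a5 a6 x : ℕ) : ℕ :=
  sel 4 x (sel 2 x a1 (sel 3 x a2 a3)) (sel 5 x a4 (sel 6 x a5 a6))

noncomputable def eT (x v : ℕ) : ℕ := look (pick tT1 tT2 tT3 tT4 tT5 tT6 x) v
noncomputable def eF (x v : ℕ) : ℕ := look (pick tF1 tF2 tF3 tF4 tF5 tF6 x) v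
noncomputable def eM (x v : ℕ) : ℕ := look (pick tM1 tM2 tM3 tM4 tM5 tM6 x) v
noncomputable def eJ (x v : ℕ) : ℕ := look (pick tJ1 tJ2 tJ3 tJ4 tJ5 tJ6 x) v
noncomputable def eP (v : ℕ) : ℕ := look tP v

def addF (a b : ℕ) : ℕ :=
  (a + b) % 4 + 4 * ((a / 4 + b / 4) % 4) + 16 * ((a / 16 + b / 16) % 4) +
    64 * ((a / 64 + b / 64) % 4)

def val (k : ℕ → ℕ) (f : ℕ) : ℕ :=
  k 0 * (f % 4) + k 1 * (f / 4 % 4) + k 2 * (f / 16 % 4) + k 3 * (f / 64 % 4)

theorem val_zero (k : ℕ → ℕ) : val k 0 = 0 := by simp [val]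

theorem val_addF (k : ℕ → ℕ) (a b : ℕ) : val k (addF a b) ≡ val k a + val k b [MOD 4] := by
  have d : ∀ x0 x1 x2 x3 : ℕ, x0 < 4 → x1 < 4 → x2 < 4 → x3 < 4 →
      (x0 + 4 * x1 + 16 * x2 + 64 * x3) % 4 = x0 ∧ (x0 + 4 * x1 + 16 * x2 + 64 * x3) / 4 % 4 = x1 ∧
      (x0 + 4 * x1 + 16 * x2 + 64 * x3) / 16 % 4 = x2 ∧
      (x0 + 4 * x1 + 16 * x2 + 64 * x3) / 64 % 4 = x3 := by
    intro x0 x1 x2 x3 a0 a1 a2 a3
    interval_cases x0 <;> interval_cases x1 <;> interval_cases x2 <;> interval_cases x3 <;> decide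
  have l : ∀ x : ℕ, x % 4 < 4 := fun x => Nat.mod_lt _ (by norm_num)
  obtain ⟨d0, d1, d2, d3⟩ := d _ _ _ _ (l (a + b)) (l (a / 4 + b / 4)) (l (a / 16 + b / 16))
    (l (a / 64 + b / 64))
  have h0 : addF a b % 4 = (a % 4 + b % 4) % 4 := d0.trans (Nat.add_mod _ _ _)
  have h1 : addF a b / 4 % 4 = (a / 4 % 4 + b / 4 % 4) % 4 := d1.trans (Nat.add_mod _ _ _)
  have h2 : addF a b / 16 % 4 = (a / 16 % 4 + b / 16 % 4) % 4 := d2.trans (Nat.add_mod _ _ _)
  have h3 : addF a b / 64 % 4 = (a / 64 % 4 + b / 64 % 4) % 4 := d3.trans (Nat.add_mod _ _ _)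
  unfold val
  rw [h0, h1, h2, h3]
  have m : ∀ c x : ℕ, c * (x % 4) ≡ c * x [MOD 4] := fun c x => (Nat.mod_modEq x 4).mul_left c
  refine ((((m _ _).add (m _ _)).add (m _ _)).add (m _ _)).trans ?_
  apply Eq.subst (motive := fun y => _ ≡ y [MOD 4]) _ (Nat.ModEq.refl _)
  ring

/-- The relators and their tails. -/
def Rl : List (List ℕ × ℕ) := [([1, 1, 1, 1, 1, 1, 1], 0), ([3, 3, 3], 0), ([5, 5, 5], 0),
  ([3, 5, 4, 6], 0), ([3, 1, 4, 2, 2], 0), ([1, 5, 1, 5, 1, 5, 1, 5, 1, 5], 1),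
  ([1, 6, 1, 6, 1, 6, 1, 6, 1, 6], 4), ([1, 3, 5, 1, 3, 5, 1, 3, 5, 1, 3, 5, 1, 3, 5], 16),
  ([1, 4, 5, 1, 4, 5, 1, 4, 5, 1, 4, 5, 1, 4, 5], 64), ([1, 2], 0), ([3, 4], 0), ([5, 6], 0)]

def rot (k : ℕ) (w : List ℕ) : List ℕ := w.drop k ++ w.take k

noncomputable def walk (lim : ℕ) (fin : ℕ → ℕ → Bool) (w : List ℕ) : ℕ → ℕ → Bool :=
  @List.rec ℕ (fun _ => ℕ → ℕ → Bool) fin
    (fun x _ ih v a => andB (andB (Nat.blt (eM x v) lim) (andB (Nat.ble 1 x) (Nat.ble x 6)))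
      (frcB (fun v' => frcB (ih v') (addF a (eF x v))) (eT x v))) w

noncomputable def relOK (x v : ℕ) (e : List ℕ × ℕ) (k : ℕ) : Bool :=
  match rot k e.1 with
  | [] => false
  | y :: w => Nat.beq y x && walk (eM x v) (fun v' a => Nat.beq v' v && Nat.beq a e.2) w
      (eT x v) (eF x v)

noncomputable def edgeJ (x v c : ℕ) : Bool :=
  if c = 0 then Nat.beq v 0 && Nat.beq (eT x v) 0 && Nat.beq (eF x v) 0 && (Nat.beq x 1 || Nat.beq x 3)
  else if c = 1 then Nat.beq (eP (eT x v)) (v * 8 + x) && Nat.blt v (eT x v) && Nat.beq (eF x v) 0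
  else relOK x v (Rl.getD (c / 4 % 16) ([], 0)) (c / 64)

noncomputable def edgeOK (x v : ℕ) : Bool := Nat.blt (eT x v) 960 && frcB (edgeJ x v) (eJ x v)

theorem edge_chk : allR (fun x => allR (edgeOK x) 0 960) 1 6 = true := by decide +kernel

noncomputable def loopOK (v i c : ℕ) : Bool :=
  walk 8192 (fun v' a => Nat.beq v' v && Nat.beq a c) (Rl.getD i ([], 0)).1 v 0

theorem loop1 : loopOK 84 6 1 = true := by decide +kernel
theorem loop2 : loopOK 76 0 81 = true := by decide +kernel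

variable {G : Type*} [Group G]

/-- The representative of a coset. -/
noncomputable def rep (ev : ℕ → G) (v : ℕ) : G :=
  if _h : eP v / 8 < v then rep ev (eP v / 8) * ev (eP v % 8) else 1
termination_by v

theorem rep_zero (ev : ℕ → G) : rep ev 0 = 1 := by rw [rep, dif_neg (Nat.not_lt_zero _)]

theorem rep_mem {ev : ℕ → G} {K : Subgroup G} (h : ∀ x, ev x ∈ K) (v : ℕ) : rep ev v ∈ K := by
  induction v using Nat.strong_induction_on with
  | _ v ih =>
    rw [rep]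
    split_ifs with h1
    · exact K.mul_mem (ih _ h1) (h _)
    · exact K.one_mem

/-- The hypotheses on the letters and the central element. -/
structure Tl (ev : ℕ → G) (z : G) (k : ℕ → ℕ) : Prop where
  z4 : z ^ 4 = 1
  cen : ∀ x, Commute z (ev x)
  rel : ∀ e ∈ Rl, evL ev e.1 = z ^ val k e.2

variable {ev : ℕ → G} {z : G} {k : ℕ → ℕ}

theorem Tl.cenK (h : Tl ev z k) {g : G} (hg : g ∈ Subgroup.closure (Set.range ev)) :
    Commute z g := by
  have : Subgroup.closure (Set.range ev) ≤ Subgroup.centralizer {z} :=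
    (Subgroup.closure_le _).mpr (by
      rintro _ ⟨x, rfl⟩
      exact Subgroup.mem_centralizer_singleton_iff.mpr (h.cen x).symm.eq)
  exact (show Commute g z from Subgroup.mem_centralizer_singleton_iff.mp (this hg)).symm

theorem Tl.cenW (h : Tl ev z k) (w : List ℕ) : Commute z (evL ev w) :=
  h.cenK (evL_mem_of_letters fun x _ => Subgroup.subset_closure ⟨x, rfl⟩)

theorem Tl.cenR (h : Tl ev z k) (v : ℕ) : Commute z (rep ev v) :=
  h.cenK (rep_mem (fun x => Subgroup.subset_closure (Set.mem_range_self x)) v)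

theorem Tl.cenS (h : Tl ev z k) {s : G} (hs : s ∈ Subgroup.closure {ev 1, ev 3}) : Commute z s :=
  h.cenK (Subgroup.closure_mono (by rintro _ (rfl | rfl) <;> exact ⟨_, rfl⟩) hs)

theorem Tl.zmul (h : Tl ev z k) {x y : G} (e : RC (Subgroup.closure {ev 1, ev 3}) x y) (i : ℕ) :
    RC (Subgroup.closure {ev 1, ev 3}) (z ^ i * x) (z ^ i * y) := by
  have : z ^ i * x * (z ^ i * y)⁻¹ = x * y⁻¹ := by
    rw [mul_inv_rev, mul_assoc, ← mul_assoc x, ← mul_assoc, ((h.cenS e).pow_left i).eq]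
    group
  unfold RC
  rw [this]
  exact e

theorem Tl.pow_eq (h : Tl ev z k) {i j : ℕ} (e : i ≡ j [MOD 4]) : z ^ i = z ^ j := by
  rw [pow_eq_pow_mod i h.z4, pow_eq_pow_mod j h.z4, e]

theorem Tl.f21 (h : Tl ev z k) : F21 (ev 1) (ev 3) := by
  have a1 := h.rel ([1, 1, 1, 1, 1, 1, 1], 0) (by simp [Rl])
  have a2 := h.rel ([3, 3, 3], 0) (by simp [Rl])
  have a3 := h.rel ([3, 1, 4, 2, 2], 0) (by simp [Rl])
  have a4 := h.rel ([1, 2], 0) (by simp [Rl])
  have a5 := h.rel ([3, 4], 0) (by simp [Rl])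
  simp only [evL, List.map, List.prod_cons, List.prod_nil, val_zero, pow_zero, mul_one] at a1 a2 a3 a4 a5
  rw [← eq_inv_iff_mul_eq_one, eq_comm, inv_eq_iff_eq_inv] at a4 a5
  refine ⟨by rw [← a1]; simp [pow_succ, mul_assoc], by rw [← a2]; simp [pow_succ, mul_assoc], ?_⟩
  rw [a4, a5] at a3
  rw [← mul_inv_eq_one, ← a3, sq]
  group

/-- The fact attached to an edge. -/
def Fct (ev : ℕ → G) (z : G) (k : ℕ → ℕ) (x v : ℕ) : Prop :=
  eT x v < 960 ∧ RC (Subgroup.closure {ev 1, ev 3}) (rep ev v * ev x)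
    (z ^ val k (eF x v) * rep ev (eT x v))

theorem Tl.walk (h : Tl ev z k) {lim : ℕ} {fin : ℕ → ℕ → Bool}
    (hf : ∀ x v, 1 ≤ x → x ≤ 6 → v < 960 → eM x v < lim → Fct ev z k x v) (w : List ℕ) :
    ∀ v a, v < 960 → walk lim fin w v a = true → ∃ v' a', fin v' a' = true ∧
      RC (Subgroup.closure {ev 1, ev 3}) (z ^ val k a * rep ev v * evL ev w)
        (z ^ val k a' * rep ev v') := by
  induction w with
  | nil => intro v a _ e; exact ⟨v, a, e, by rw [evL_nil, mul_one]; exact RC.refl _ _⟩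
  | cons x w ih =>
    intro v a hv e
    have e' : andB (andB (Nat.blt (eM x v) lim) (andB (Nat.ble 1 x) (Nat.ble x 6)))
      (frcB (fun v' => frcB (Cfsg.ON.walk lim fin w v') (addF a (eF x v))) (eT x v)) = true := e
    rw [andB_eq_true, andB_eq_true, andB_eq_true, frcB_eq, frcB_eq, Nat.blt_eq, Nat.ble_eq,
      Nat.ble_eq] at e'
    obtain ⟨f1, f2⟩ := hf x v e'.1.2.1 e'.1.2.2 hv e'.1.1
    obtain ⟨v', a', g1, g2⟩ := ih _ _ f1 e'.2
    refine ⟨v', a', g1, RC.trans ?_ g2⟩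
    rw [evL_cons, ← mul_assoc, h.pow_eq (val_addF k a _), pow_add, mul_assoc (z ^ val k a) (rep ev v),
      mul_assoc (z ^ val k a) (z ^ _)]
    exact (h.zmul f2 _).mul _

theorem Tl.getD (h : Tl ev z k) (i : ℕ) :
    evL ev (Rl.getD i ([], 0)).1 = z ^ val k (Rl.getD i ([], 0)).2 := by
  by_cases hi : i < Rl.length
  · rw [List.getD_eq_getElem _ _ hi]
    exact h.rel _ (List.getElem_mem hi)
  · rw [List.getD_eq_default _ _ (by omega), val_zero, pow_zero]
    rfl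

theorem Tl.rot (h : Tl ev z k) {w : List ℕ} {i : ℕ} (e : evL ev w = z ^ i) (j : ℕ) :
    evL ev (rot j w) = z ^ i := by
  rw [← List.take_append_drop j w, evL_append, ← eq_inv_mul_iff_mul_eq] at e
  unfold Cfsg.ON.rot
  rw [evL_append, e, mul_assoc, ((h.cenW _).pow_left i).eq]
  group

theorem Tl.fct (h : Tl ev z k) : ∀ x v, 1 ≤ x → x ≤ 6 → v < 960 → Fct ev z k x v := by
  have key : ∀ t x v, 1 ≤ x → x ≤ 6 → v < 960 → eM x v < t → Fct ev z k x v := by
    intro t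
    induction t with
    | zero => intro x v _ _ _ e; omega
    | succ t ih =>
      intro x v h1 h6 hv ht
      have c := allR_spec (allR_spec edge_chk x h1 (by omega)) v (Nat.zero_le _) (by omega)
      unfold edgeOK at c
      rw [Bool.and_eq_true, Nat.blt_eq, frcB_eq] at c
      refine ⟨c.1, ?_⟩
      have c2 := c.2
      unfold edgeJ at c2
      split_ifs at c2 with j0 j1
      · simp only [Bool.and_eq_true, Nat.beq_eq, Bool.or_eq_true] at c2
        obtain ⟨⟨⟨rfl, b2⟩, b3⟩, b4⟩ := c2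
        rw [b2, b3, val_zero, rep_zero]
        unfold RC
        rcases b4 with rfl | rfl <;> simpa using Subgroup.subset_closure (by simp)
      · simp only [Bool.and_eq_true, Nat.beq_eq, Nat.blt_eq] at c2
        obtain ⟨⟨b1, b2⟩, b3⟩ := c2
        have e1 : eP (eT x v) / 8 = v := by omega
        have e2 : eP (eT x v) % 8 = x := by omega
        rw [b3, val_zero, pow_zero, one_mul, rep.eq_1 ev (eT x v), e1, e2, dif_pos b2]
        exact RC.refl _ _
      · unfold relOK at c2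
        have e := h.rot (h.getD (eJ x v / 4 % 16)) (eJ x v / 64)
        generalize Cfsg.ON.rot (eJ x v / 64) _ = ρ at c2 e
        cases ρ with
        | nil => simp at c2
        | cons y w =>
          simp only [Bool.and_eq_true, Nat.beq_eq] at c2
          obtain ⟨rfl, c3⟩ := c2
          obtain ⟨v', a', g1, g2⟩ := h.walk (fun x' v' a b c d => ih x' v' a b c (by omega)) w _ _ c.1 c3
          simp only [Bool.and_eq_true, Nat.beq_eq] at g1
          obtain ⟨rfl, rfl⟩ := g1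
          have g3 := (g2.mul (evL ev w)⁻¹).symm
          rw [mul_inv_cancel_right, ((h.cenR _).pow_left _).eq, ← e, evL_cons, mul_assoc,
            mul_inv_cancel_right] at g3
          exact g3
  exact fun x v a b c => key _ x v a b c (Nat.lt_succ_self _)

theorem Tl.loop [Finite G] (h : Tl ev z k) {v i c : ℕ} (hv : v < 960) (e : loopOK v i c = true) :
    z ^ val k (Rl.getD i ([], 0)).2 = z ^ val k c := by
  obtain ⟨v', a', g1, g2⟩ := h.walk (fun x v a b c _ => h.fct x v a b c) _ _ _ hv e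
  simp only [Bool.and_eq_true, Nat.beq_eq] at g1
  obtain ⟨rfl, rfl⟩ := g1
  rw [val_zero, pow_zero, one_mul, h.getD, ← ((h.cenR _).pow_left _).eq] at g2
  rw [← mul_inv_eq_one]
  refine h.f21.eq_one (by simpa [RC, mul_assoc] using g2) ?_
  rw [((Commute.refl z).pow_pow _ _).inv_right.mul_pow, inv_pow, ← pow_mul, ← pow_mul, mul_comm _ 4,
    mul_comm _ 4, pow_mul, pow_mul, h.z4]
  simp

theorem Tl.k01 [Finite G] (h : Tl ev z k) : z ^ k 1 = z ^ k 0 := by
  have := h.loop (by norm_num) loop1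
  simpa [Rl, val] using this

theorem Tl.k023 [Finite G] (h : Tl ev z k) : z ^ (k 0 + k 2 + k 3) = 1 := by
  have := h.loop (by norm_num) loop2
  simpa [Rl, val] using this.symm

/-- The table on 3840 points, by formula. -/
noncomputable def imgF (k : ℕ → ℕ) (x p : ℕ) : ℕ :=
  if 1 ≤ x ∧ x ≤ 6 then 4 * eT x (p / 4) + (p + val k (eF x (p / 4))) % 4
  else if x = 7 then 4 * (p / 4) + (p + 1) % 4 else p

noncomputable def repZ (ev : ℕ → G) (z : G) (p : ℕ) : G := z ^ (p % 4) * rep ev (p / 4)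

theorem repZ_zero : repZ ev z 0 = 1 := by simp [repZ, rep_zero]

theorem Tl.cf (h : Tl ev z k) (h7 : ev 7 = z) (h0 : ∀ x, x = 0 ∨ 8 ≤ x → ev x = 1) :
    CF (Subgroup.closure {ev 1, ev 3}) (repZ ev z) ev (imgF k) 3840 := by
  intro x p hp
  unfold imgF repZ
  split_ifs with a1 a2
  · obtain ⟨f1, f2⟩ := h.fct x (p / 4) a1.1 a1.2 (by omega)
    refine ⟨by omega, ?_⟩
    have e1 : (4 * eT x (p / 4) + (p + val k (eF x (p / 4))) % 4) / 4 = eT x (p / 4) := by omega
    have e2 : z ^ ((4 * eT x (p / 4) + (p + val k (eF x (p / 4))) % 4) % 4) =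
        z ^ (p % 4) * z ^ val k (eF x (p / 4)) := by
      rw [← pow_add]
      exact h.pow_eq (by unfold Nat.ModEq; omega)
    rw [e1, e2, mul_assoc, mul_assoc]
    exact h.zmul f2 _
  · refine ⟨by omega, ?_⟩
    have e1 : (4 * (p / 4) + (p + 1) % 4) / 4 = p / 4 := by omega
    have e2 : z ^ ((4 * (p / 4) + (p + 1) % 4) % 4) = z ^ (p % 4) * z := by
      rw [← pow_succ]
      exact h.pow_eq (by unfold Nat.ModEq; omega)
    rw [e1, e2, a2, h7, mul_assoc, ← (h.cenR _).eq, ← mul_assoc]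
    exact RC.refl _ _
  · rw [h0 x (by omega), mul_one]
    exact ⟨hp, RC.refl _ _⟩

end Cfsg.ON
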